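import Cfsg.Agent.Co1T.A2
import Cfsg.Agent.Co1T.Cox

/-! `Fr.iso`: two frames with fused `z` and the same invariant `Ab` have isomorphic involution centralisers. -/

set_option autoImplicit false
set_option linter.unusedSectionVars false
set_option maxRecDepth 100000

namespace Cfsg.Agent.Co1A

open Cfsg.Agent.Geom Cfsg.Agent.Geom.Formed Subgroup Cfsg.Agent.BG Cfsg.Agent.LES Cfsg.Agent.PGrp Module

def U4 (v : W) : Prop := ∃ n < 16, cv n = v
/-- `g` is trivial on `U4` and on the quotient. -/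
def Rad (g : O8) : Prop := (∀ v, U4 v → g.1 v = v) ∧ ∀ v, U4 (v + g.1 v)

theorem U4.B {v w : W} (h : U4 v) (k : U4 w) : B v w = 0 := by
  obtain ⟨a, ha, rfl⟩ := h; obtain ⟨b, hb, rfl⟩ := k
  rw [B0 (by omega) (by omega)]; revert a b; decide +kernel
theorem U4.of {v : W} (h : ∀ w, U4 w → Co1A.B v w = 0) : U4 v := by
  obtain ⟨n, hn, rfl⟩ := cv_surj v
  have : ∀ n < 256, bN n 1 = 0 → bN n 2 = 0 → bN n 4 = 0 → bN n 8 = 0 → n < 16 := by decide +kernel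
  have k : ∀ i < 16, bN n i = 0 := fun i hi => (B0 hn (by omega)).1 (h _ ⟨i, hi, rfl⟩)
  exact ⟨n, this n hn (k _ (by decide)) (k _ (by decide)) (k _ (by decide)) (k _ (by decide)), rfl⟩
theorem U4.ind {P : W → Prop} (h0 : P 0) (h1 : ∀ i < 4, P (cv (2 ^ i))) (ha : ∀ a b, P a → P b → P (a + b)) {v : W}
    (h : U4 v) : P v := by
  obtain ⟨n, hn, rfl⟩ := h
  have : ∀ n < 16, n = (n &&& 2 ^ 0) ^^^ (n &&& 2 ^ 1) ^^^ (n &&& 2 ^ 2) ^^^ (n &&& 2 ^ 3) ∧
    ∀ i < 4, n &&& 2 ^ i = 0 ∨ n &&& 2 ^ i = 2 ^ i := by decide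
  have k : ∀ i < 4, P (cv (n &&& 2 ^ i)) := fun i hi => by
    rcases (this n hn).2 i hi with e | e <;> rw [e]
    exacts [cv_zero ▸ h0, h1 i hi]
  rw [(this n hn).1, cv_xor, cv_xor, cv_xor]
  exact ha _ _ (ha _ _ (ha _ _ (k 0 (by decide)) (k 1 (by decide))) (k 2 (by decide))) (k 3 (by decide))
theorem rad_eich {a b : ℕ} (ha : a < 16) (hb : b < 16) : Rad (eich S (cv a) (cv b)) := by
  have h1 : ∀ a < 16, qN a = 0 ∧ ∀ b < 16, bN a b = 0 := by decide +kernel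
  have k := fun x hx => eich_cv (x := x) (by omega) (by omega) hx (h1 a ha).1 (h1 b hb).1 ((h1 a ha).2 b hb)
  refine ⟨?_, fun v => ?_⟩
  · rintro _ ⟨n, hn, rfl⟩
    rw [k n (by omega), (h1 a ha).2 n hn, (h1 b hb).2 n hn]; simp
  · obtain ⟨n, hn, rfl⟩ := cv_surj v
    rw [k n hn, ← cv_xor, ← Nat.xor_assoc, ← Nat.xor_assoc, Nat.xor_self, Nat.zero_xor]
    refine ⟨_, Nat.xor_lt_two_pow (n := 4) ?_ ?_, rfl⟩
    · have := bN_lt b n; show bN b n * a < _; nlinarith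
    · have := bN_lt a n; show bN a n * b < _; nlinarith
theorem rad_r : Rad rr := rad_eich (by decide) (by decide)
theorem rad_t : Rad tt := rad_eich (by decide) (by decide)

variable {G : Type*} [Group G] [Finite G] {z x u q : G} {Q : Subgroup G} {p : G → W} {μ : C1[z] →* O8} {h k : C1[z]}

def Cen (Q : Subgroup G) (p : G → W) (h : G) : Prop := ∀ x ∈ Q, U4 (p x) → Commute h x
/-- The invariant distinguishing the two families of maximal elementary abelian subgroups of `Q`. -/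
def Ab (Q : Subgroup G) (p : G → W) (μ : C1[z] →* O8) : Prop :=
  ∃ h k : C1[z], μ h = rr ∧ μ k = tt ∧ Cen Q p h ∧ Cen Q p k ∧ Commute h.1 k.1

namespace Fr
variable (F : Fr z Q p μ)
include F

theorem exCen {g : O8} (hg : g ∈ Om) (hr : ∀ v, U4 v → g.1 v = v) : ∃ h, μ h = g ∧ Cen Q p h.1 := by
  choose X hX e using fun i : ℕ => F.surj (cv (2 ^ i))
  have st : ∀ n ≤ 4, ∃ h, μ h = g ∧ ∀ i < n, Commute h.1 (X i) := fun n => by
    induction n with
    | zero => exact fun _ => (F.lift hg).imp fun _ h => ⟨h, by simp⟩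
    | succ n ih =>
      intro hn
      obtain ⟨h, rfl, H⟩ := ih (by omega)
      have hn' : 2 ^ n < 16 := Nat.pow_lt_pow_right (by decide : 1 < 2) (show n < 4 from hn)
      have b : ∀ n < 4, bN (2 ^ (n + 4)) (2 ^ n) = 1 ∧ ∀ i < n, bN (2 ^ (n + 4)) (2 ^ i) = 0 := by decide +kernel
      rcases (F.eq_iff (hX n) (F.conj h (hX n))).1 (by rw [F.act h _ (hX n), e, hr _ ⟨_, hn', rfl⟩]) with f | f
      · exact ⟨h, rfl, fun i hi => (Nat.lt_succ_iff_lt_or_eq.1 hi).elim (H i) fun k => k ▸ cj_eq_iff_comm.1 f⟩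
      · refine ⟨⟨X (n + 4), F.Q_le (hX _)⟩⁻¹ * h, by rw [map_mul, map_inv, (F.ker _).2 (hX _), inv_one, one_mul],
          fun i hi => (Nat.lt_succ_iff_lt_or_eq.1 hi).elim (fun k => Commute.mul_left (Commute.inv_left ?_) (H i k)) ?_⟩
        · rw [← F.comm (hX _) (hX _), e, e, B0 (pow_lt8 (by omega)) (pow_lt8 (by omega))]; exact (b n hn).2 i k
        · rintro rfl
          have := F.es.conj_of_not (hX (i + 4)) (hX i) (by
            rw [← F.comm (hX _) (hX _), e, e, B0 (pow_lt8 (by omega)) (pow_lt8 (by omega)), (b i hn).1]; decide)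
          refine cj_eq_iff_comm.1 ?_
          show (X (i + 4))⁻¹ * h.1 * X i * ((X (i + 4))⁻¹ * h.1)⁻¹ = X i
          rw [mul_inv_rev, mul_assoc _ h.1, mul_assoc, ← mul_assoc (h.1 * _), f, ← this]; group
  obtain ⟨h, hh, H⟩ := st 4 le_rfl
  have hz : Commute h.1 z := mem_cent1.1 h.2
  refine ⟨h, hh, fun x hx hu => U4.ind (P := fun v => ∀ x ∈ Q, p x = v → Commute h.1 x) ?_ ?_ ?_ hu x hx rfl⟩
  · intro x hx f
    rcases (F.p0 hx).1 f with f | f <;> rw [f]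
    exacts [.one_right _, hz]
  · intro i hi x hx f
    rcases (F.eq_iff (hX i) hx).1 ((e i).trans f.symm) with f | f <;> rw [f]
    exacts [H i hi, (H i hi).mul_right hz]
  · intro a b ha hb x hx f
    obtain ⟨y, hy, rfl⟩ := F.surj a
    simpa using (ha y hy rfl).mul_right (hb _ (Q.mul_mem (Q.inv_mem hy) hx) (by
      rw [F.add (Q.inv_mem hy) hx, F.inv hy, f, ← add_assoc, W_add, zero_add]))

theorem comm_z (h1 : Rad (μ h)) (k1 : Rad (μ k)) (h2 : Cen Q p h) (k2 : Cen Q p k) :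
    Commute h.1 k.1 ∨ h.1 * k.1 = k.1 * h.1 * z := by
  have d : ∀ h : C1[z], Rad (μ h) → ∀ x ∈ Q, ∃ d ∈ Q, U4 (p d) ∧ h.1 * x * h.1⁻¹ = x * d := fun h r x hx =>
    ⟨_, Q.mul_mem (Q.inv_mem hx) (F.conj h hx), by
      rw [F.add (Q.inv_mem hx) (F.conj h hx), F.inv hx, F.act h x hx]; exact r.2 _, (mul_inv_cancel_left _ _).symm⟩
  refine (F.le.cQ ((k.1 * h.1)⁻¹ * (h.1 * k.1)) fun x hx => cj_eq_iff_comm.1 ?_).imp
    (fun e => (inv_mul_eq_one.1 e).symm) inv_mul_eq_iff_eq_mul.1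
  obtain ⟨a, ha, a1, a2⟩ := d h h1 x hx
  obtain ⟨b, hb, b1, b2⟩ := d k k1 x hx
  have : h.1 * (k.1 * x * k.1⁻¹) * h.1⁻¹ = k.1 * (h.1 * x * h.1⁻¹) * k.1⁻¹ := by
    rw [a2, b2, ← conj_mul, ← conj_mul, a2, b2, cj_eq_iff_comm.2 (h2 b hb b1), cj_eq_iff_comm.2 (k2 a ha a1), mul_assoc,
      mul_assoc, ((F.comm ha hb).1 (a1.B b1)).eq]
  calc _ = (k.1 * h.1)⁻¹ * (h.1 * (k.1 * x * k.1⁻¹) * h.1⁻¹) * (k.1 * h.1) := by group
    _ = x := by rw [this]; group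

theorem ab_all (H : Ab Q p μ) (h1 : μ h = rr) (k1 : μ k = tt) (h2 : Cen Q p h) (k2 : Cen Q p k) : Commute h.1 k.1 := by
  obtain ⟨h', k', a1, b1, a2, b2, c⟩ := H
  have d : ∀ {h h' : C1[z]}, μ h = μ h' → Cen Q p h → Cen Q p h' → ∃ d ∈ Q, U4 (p d) ∧ h.1 = h'.1 * d :=
    fun {h h'} e a b => by
    have m : (h'⁻¹ * h).1 ∈ Q := (F.ker _).1 (by rw [map_mul, map_inv, e, inv_mul_cancel])
    refine ⟨_, m, U4.of fun w hw => ?_, (mul_inv_cancel_left _ _).symm⟩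
    obtain ⟨x, hx, rfl⟩ := F.surj w
    exact (F.comm m hx).2 ((b x hx hw).inv_left.mul_left (a x hx hw))
  obtain ⟨a, ha, a3, e⟩ := d (h1.trans a1.symm) h2 a2
  obtain ⟨b, hb, b3, f⟩ := d (k1.trans b1.symm) k2 b2
  rw [e]
  refine Commute.mul_left ?_ (k2 a ha a3).symm
  rw [f]; exact c.mul_right (a2 b hb b3)

theorem fused (hf : ∃ u ∈ Q, IsConj z u ∧ u ≠ z) (hx : x ∈ Q) (x2 : S (p x) = 0) (x0 : p x ≠ 0) : IsConj z x := by
  obtain ⟨u, hu, c, n⟩ := hf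
  have o := (Invol.orderOf_of_isConj c).symm.trans F.es.z2
  obtain ⟨h, e⟩ := F.trans hu hx (Invol.mul_self_of o) ((F.sq hx).1 x2)
    (by rw [Ne, F.p0 hu, not_or]; exact ⟨Invol.ne_one_of o, n⟩) x0
  exact c.trans (isConj_iff.2 ⟨_, e⟩)

theorem iso {G' : Type*} [Group G'] [Finite G'] {z' : G'} {Q' : Subgroup G'} {p' : G' → W} {μ' : C1[z'] →* O8}
    (F' : Fr z' Q' p' μ') (hf : ∃ u ∈ Q, IsConj z u ∧ u ≠ z) (hf' : ∃ u ∈ Q', IsConj z' u ∧ u ≠ z')
    (hab : Ab Q p μ ↔ Ab Q' p' μ') :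
    ∃ φ : C1[z'] ≃* C1[z], (∀ h, μ (φ h) = μ' h) ∧ ∀ h : C1[z'], h.1 ∈ Q' → p (φ h) = p' h := by
  obtain ⟨θ, hθ⟩ := F.theta F'
  let FF : Subgroup (C1[z] × C1[z']) := ((cQ F.le).comp (.fst _ _)).eqLocus
    (((MulAut.congr θ).toMonoidHom.comp (cQ F'.le)).comp (.snd _ _))
  have mF : ∀ {a}, a ∈ FF ↔ ∀ x, cQ F.le a.1 (θ x) = θ (cQ F'.le a.2 x) := fun {a} =>
    ⟨fun e x => (DFunLike.congr_fun e (θ x)).trans (by simp), fun e => MulEquiv.ext fun x => by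
      obtain ⟨x, rfl⟩ := θ.surjective x
      exact (e x).trans (by simp)⟩
  have θz : (θ ⟨z', F'.es.zQ⟩).1 = z := ((F.p0 (θ _).2).1 ((hθ _).trans F'.pz)).resolve_left fun e =>
    F'.es.z1 (congrArg Subtype.val (θ.map_eq_one_iff.1 (Subtype.ext e)))
  have mm : ∀ a ∈ FF, μ a.1 = μ' a.2 := fun a ha => OG.ext fun v => by
    obtain ⟨x, hx, rfl⟩ := F'.surj v
    rw [← F'.act _ x hx, ← hθ ⟨x, hx⟩, ← F.act _ _ (θ _).2, ← cQ_val F.le, mF.1 ha, hθ]; rfl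
  have ex : ∀ h h', μ h = μ' h' → ∃ q, ∃ hq : q ∈ Q, (⟨q, F.Q_le hq⟩⁻¹ * h, h') ∈ FF := fun h h' e => by
    obtain ⟨q, hq, f⟩ := F.inner (cQ F.le h * (MulAut.congr θ (cQ F'.le h'))⁻¹) fun x => by
      obtain ⟨x, rfl⟩ := (MulAut.congr θ (cQ F'.le h')).surjective x
      obtain ⟨x, rfl⟩ := θ.surjective x
      rw [MulAut.mul_apply, MulAut.inv_apply_self, cQ_val, F.act _ _ (θ x).2, hθ, e, ← F'.act _ _ x.2]
      simp [hθ, cQ_val]
    refine ⟨q, hq, ?_⟩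
    have : cQ F.le h * (MulAut.congr θ (cQ F'.le h'))⁻¹ = cQ F.le ⟨q, F.Q_le hq⟩ := MulEquiv.ext fun x => Subtype.ext (f x)
    show cQ F.le (_ * h) = MulAut.congr θ (cQ F'.le h')
    rw [map_mul, map_inv, ← this]; group
  have ex' : ∀ h', ∃ h, (h, h') ∈ FF := fun h' => by
    obtain ⟨h, e⟩ := F.lift (F'.mem h')
    obtain ⟨q, hq, f⟩ := ex h h' e
    exact ⟨_, f⟩
  let δ : Q' →* FF := (((inclusion fun _ => F.Q_le).comp θ.toMonoidHom).prod (inclusion fun _ => F'.Q_le)).codRestrict _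
    fun x => mF.2 fun y => Subtype.ext (by
      rw [show cQ F'.le _ y = x * y * x⁻¹ from rfl, map_mul, map_mul, map_inv]; rfl)
  have nD : δ.range.Normal := ⟨by
    rintro _ ⟨x, rfl⟩ a
    exact ⟨cQ F'.le a.1.2 x, Subtype.ext (Prod.ext (Subtype.ext (congrArg Subtype.val (mF.1 a.2 x).symm :)) rfl)⟩⟩
  let π : FF ⧸ δ.range →* O8 := QuotientGroup.lift _ (μ'.comp ((MonoidHom.snd _ _).comp FF.subtype)) (by
    rintro _ ⟨x, rfl⟩; exact (F'.ker _).2 x.2)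
  have ζF : ((⟨z, cent1_self z⟩, 1) : C1[z] × C1[z']) ∈ FF := mF.2 fun x => Subtype.ext (by
    rw [map_one, MulAut.one_apply]; exact cj_eq_iff_comm.2 (F.es.zc _ (θ x).2).symm)
  let ζ : FF ⧸ δ.range := QuotientGroup.mk ⟨_, ζF⟩
  have hζ : ∀ x, Commute x ζ := fun x => by
    obtain ⟨a, rfl⟩ := QuotientGroup.mk_surjective x
    exact Commute.map (Subtype.ext (Prod.ext (Subtype.ext (mem_cent1.1 a.1.1.2)) (by simp)) : Commute a ⟨_, ζF⟩)
      (QuotientGroup.mk' _)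
  have ζ2 : ζ * ζ = 1 := congrArg (QuotientGroup.mk (s := δ.range))
    (Subtype.ext (Prod.ext (Subtype.ext F.es.zz) (mul_one _)) : (⟨_, ζF⟩ * ⟨_, ζF⟩ : FF) = 1)
  have hk : ∀ x, π x = 1 → x = 1 ∨ x = ζ := fun x e => by
    obtain ⟨a, rfl⟩ := QuotientGroup.mk_surjective x
    have m := (F'.ker _).1 e
    have e2 : (a * (δ ⟨_, m⟩)⁻¹).1.2 = 1 := mul_inv_cancel _
    rw [← QuotientGroup.mk_mul_of_mem _ (δ.range.inv_mem ⟨⟨_, m⟩, rfl⟩)]
    generalize a * (δ ⟨_, m⟩)⁻¹ = b at e2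
    refine (F.le.cQ b.1.1 fun x hx => cj_eq_iff_comm.1 ?_).imp
      (fun e => congrArg _ (Subtype.ext (Prod.ext (Subtype.ext e) e2) : b = 1))
      fun e => congrArg _ (Subtype.ext (Prod.ext (Subtype.ext e) e2))
    have := congrArg Subtype.val (mF.1 b.2 (θ.symm ⟨x, hx⟩))
    rwa [e2, map_one, MulAut.one_apply, θ.apply_symm_apply] at this
  have hk' : ∀ x y, π x = π y → x = y ∨ x = y * ζ := fun x y e =>
    (hk (y⁻¹ * x) (by rw [map_mul, map_inv, e, inv_mul_cancel])).imp (fun e => (inv_mul_eq_one.1 e).symm)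
      fun e => by rw [← e, mul_inv_cancel_left]
  obtain ⟨K, k1, k2⟩ := cox_split π hζ ζ2 hk (by
    refine le_antisymm ?_ fun g hg => ?_
    · rintro _ ⟨x, rfl⟩
      obtain ⟨a, rfl⟩ := QuotientGroup.mk_surjective x
      exact F'.mem _
    · obtain ⟨h', rfl⟩ := F'.lift hg
      obtain ⟨h, e⟩ := ex' h'
      exact ⟨QuotientGroup.mk ⟨_, e⟩, rfl⟩) (fun a b ha hb ab ne y hy => by
    obtain ⟨u', hu', e'⟩ := F'.surj (a + b)
    have s0 : S (a + b) = 0 := by rw [S_add, ha, hb, ab]; rfl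
    have n0 : a + b ≠ 0 := by rwa [← W_sub, sub_ne_zero]
    have b0 : B (a + b) b = 0 := by rw [B_add', ab, B_self, add_zero]
    have hu := (θ ⟨u', hu'⟩).2
    have e : p (θ ⟨u', hu'⟩) = a + b := (hθ _).trans e'
    obtain ⟨s, s1, s2, s3⟩ := F.star (F.fused hf hu (e ▸ s0) (e ▸ n0)) hu (fun k => n0 (by rw [← e, k, F.pz])) (e ▸ b0) hb
    obtain ⟨t, t1, t2, t3⟩ := F'.star (F'.fused hf' hu' (e' ▸ s0) (e' ▸ n0)) hu' (fun k => n0 (by rw [← e', k, F'.pz]))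
      (e' ▸ b0) hb
    rw [e] at s1; rw [e'] at t1
    obtain ⟨q, hq, m⟩ := ex s t (s1.trans t1.symm)
    set u := (θ ⟨u', hu'⟩).1 with hu0
    have uz := F.es.zc u hu
    have c : ∀ x ∈ Q, Commute x u → Commute q (s.1 * x * s.1⁻¹) := fun x hx c => by
      obtain ⟨x', e2⟩ := θ.surjective ⟨x, hx⟩
      obtain rfl : (θ x').1 = x := congrArg Subtype.val e2
      have c' : Commute x'.1 u' := by rw [← F'.comm x'.2 hu', ← hθ, e', ← e, F.comm hx hu]; exact c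
      have k : (θ (cQ F'.le t x')).1 = (θ x').1 ∨ (θ (cQ F'.le t x')).1 = (θ x').1 * (u * z) :=
        (t3 _ x'.2 c').imp (fun k => congrArg (fun a => (θ a).1) (Subtype.ext k)) fun k => by
          rw [show cQ F'.le t x' = x' * (⟨u', hu'⟩ * ⟨z', F'.es.zQ⟩) from Subtype.ext k, map_mul, map_mul, coe_mul, coe_mul,
            θz]
      have k2 : p (θ (cQ F'.le t x')).1 = p (s.1 * (θ x').1 * s.1⁻¹) := by
        rw [hθ, cQ_val, F'.act _ _ x'.2, F.act _ _ hx, hθ, s1, t1]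
      have k3 : p ((θ x').1 * (u * z)) ≠ p (θ x').1 := by
        rw [F.add hx (Q.mul_mem hu F.es.zQ), F.pmz hu, e]; simpa using n0
      have k4 : (θ (cQ F'.le t x')).1 = s.1 * (θ x').1 * s.1⁻¹ := by
        rcases k with k | k <;> rcases s3 _ hx c with f | f <;> rw [k, f] at k2 ⊢
        exacts [absurd k2.symm k3, absurd k2 k3]
      have := congrArg Subtype.val (mF.1 m x')
      rw [k4] at this
      have this : q⁻¹ * s.1 * (θ x').1 * (q⁻¹ * s.1)⁻¹ = s.1 * (θ x').1 * s.1⁻¹ := this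
      exact Commute.inv_left_iff.1 (cj_eq_iff_comm.1 (Eq.trans (by group) this))
    have su : Commute s.1 u := by rw [← s2]; exact (Commute.refl _).mul_right (.refl _)
    have qu : Commute q u := cj_eq_iff_comm.2 su ▸ c u hu (.refl _)
    have u2 : u * u = 1 := (F.sq hu).1 (e ▸ s0)
    have q4 := F.es.perp1 hu hq fun x hx k => by
      have := c x hx k
      rcases s3 x hx k with f | f <;> rw [f] at this
      · exact this.symm
      · exact (mul_inv_cancel_right x (u * z) ▸ this.mul_right (qu.mul_right (F.es.zc q hq)).inv_right).symm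
    have sz : Commute s.1 z := mem_cent1.1 s.2
    have q5 : q⁻¹ * s.1 * (q⁻¹ * s.1) = u := by
      have : Commute s.1 q ∧ q * q = 1 := by
        rcases q4 with f | f | f | f <;> rw [f]
        exacts [⟨.one_right _, mul_one _⟩, ⟨sz, F.es.zz⟩, ⟨su, u2⟩, ⟨su.mul_right sz, by
          rw [uz.symm.mul_mul_mul_comm, u2, F.es.zz, mul_one]⟩]
      rw [this.1.inv_right.mul_mul_mul_comm, ← mul_inv_rev, this.2, s2, inv_one, one_mul]
    have sq : (QuotientGroup.mk ⟨_, m⟩ * QuotientGroup.mk ⟨_, m⟩ : FF ⧸ δ.range) = 1 :=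
      (QuotientGroup.eq_one_iff _).2 ⟨⟨u', hu'⟩, Subtype.ext (Prod.ext (Subtype.ext q5.symm) (Subtype.ext t2.symm))⟩
    rcases hk' y (QuotientGroup.mk ⟨_, m⟩) (hy.trans (Eq.trans (by
      rw [eich_eq_refl_mul s0 b0 (by rw [hb]; decide), hb, one_smul, add_comm a, ← add_assoc, W_add, zero_add]) t1.symm))
      with f | f <;> rw [f]
    · exact sq
    · rw [(hζ _).symm.mul_mul_mul_comm, sq, ζ2, mul_one]) (fun x y hx hy => by
    obtain ⟨h', a1, a2⟩ := F'.exCen (eich_mem_commutator nd nex _ _) rad_r.1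
    obtain ⟨k', b1, b2⟩ := F'.exCen (eich_mem_commutator nd nex _ _) rad_t.1
    obtain ⟨h, a3⟩ := ex' h'
    obtain ⟨k, b3⟩ := ex' k'
    have ce : ∀ {h h'}, (h, h') ∈ FF → Cen Q' p' h'.1 → Cen Q p h.1 := fun m c x hx hu => by
      obtain ⟨x', e2⟩ := θ.surjective ⟨x, hx⟩
      obtain rfl : (θ x').1 = x := congrArg Subtype.val e2
      have := congrArg Subtype.val (mF.1 m x')
      rw [show cQ F'.le _ x' = x' from Subtype.ext (cj_eq_iff_comm.2 (c _ x'.2 (hθ x' ▸ hu)))] at this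
      exact cj_eq_iff_comm.1 this
    have a4 := (mm _ a3).trans a1
    have b4 := (mm _ b3).trans b1
    have c : Commute (QuotientGroup.mk ⟨_, a3⟩ : FF ⧸ δ.range) (QuotientGroup.mk ⟨_, b3⟩) := by
      by_cases H : Ab Q p μ
      · exact congrArg _ (Subtype.ext (Prod.ext (Subtype.ext (F.ab_all H a4 b4 (ce a3 a2) (ce b3 b2)))
          (Subtype.ext (F'.ab_all (hab.1 H) a1 b1 a2 b2))) : (⟨_, a3⟩ * ⟨_, b3⟩ : FF) = ⟨_, b3⟩ * ⟨_, a3⟩)
      · have c1 := (F.comm_z (a4 ▸ rad_r) (b4 ▸ rad_t) (ce a3 a2) (ce b3 b2)).resolve_left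
          fun c => H ⟨_, _, a4, b4, ce a3 a2, ce b3 b2, c⟩
        have c2 := (F'.comm_z (a1 ▸ rad_r) (b1 ▸ rad_t) a2 b2).resolve_left fun c => H (hab.2 ⟨_, _, a1, b1, a2, b2, c⟩)
        have : (⟨_, a3⟩ * ⟨_, b3⟩ : FF) = ⟨_, b3⟩ * ⟨_, a3⟩ * δ ⟨z', F'.es.zQ⟩ :=
          Subtype.ext (Prod.ext (Subtype.ext (c1.trans (congrArg _ θz.symm))) (Subtype.ext c2))
        exact (congrArg QuotientGroup.mk this).trans (QuotientGroup.mk_mul_of_mem _ ⟨_, rfl⟩)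
    rcases hk' x (QuotientGroup.mk ⟨_, a3⟩) (hx.trans a1.symm) with f | f <;>
      rcases hk' y (QuotientGroup.mk ⟨_, b3⟩) (hy.trans b1.symm) with g | g <;> rw [f, g]
    exacts [c, c.mul_right (hζ _), c.mul_left (hζ _).symm, (c.mul_right (hζ _)).mul_left (hζ _).symm])
  let K' : Subgroup FF := K.comap (QuotientGroup.mk' _)
  have kD : ∀ a : K', μ' a.1.1.2 = 1 → ∃ x, δ x = a := fun a e => (QuotientGroup.eq_one_iff _).1 (k1 _ a.2 e)
  let f : K' →* C1[z] := ((MonoidHom.fst _ _).comp FF.subtype).comp K'.subtype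
  let f' : K' →* C1[z'] := ((MonoidHom.snd _ _).comp FF.subtype).comp K'.subtype
  have dK : ∀ x, δ x ∈ K' := fun x => by
    show QuotientGroup.mk (δ x) ∈ K
    rw [(QuotientGroup.eq_one_iff (N := δ.range) _).2 ⟨x, rfl⟩]; exact K.one_mem
  have b' : Function.Bijective f' := ⟨(injective_iff_map_eq_one _).2 fun a e => by
    obtain ⟨x, hx⟩ := kD a (by rw [show a.1.1.2 = 1 from e, map_one])
    have : (δ x).1.2 = 1 := by rw [hx]; exact e
    obtain rfl : x = 1 := Subtype.ext (congrArg Subtype.val this :)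
    exact Subtype.ext (by rw [← hx, map_one]; rfl), fun h' => by
    obtain ⟨x, hx, e⟩ := k2 _ (F'.mem h')
    obtain ⟨a, rfl⟩ := QuotientGroup.mk_surjective x
    have m : (a.1.2⁻¹ * h').1 ∈ Q' := (F'.ker _).1 (by rw [map_mul, map_inv, ← e]; exact inv_mul_cancel _)
    exact ⟨⟨a, hx⟩ * ⟨_, dK ⟨_, m⟩⟩, mul_inv_cancel_left _ _⟩⟩
  have b : Function.Bijective f := (Nat.bijective_iff_injective_and_card _).2 ⟨(injective_iff_map_eq_one _).2 fun a e => by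
    obtain ⟨x, hx⟩ := kD a (by rw [← mm _ a.1.2, show a.1.1.1 = 1 from e, map_one])
    have : (δ x).1.1 = 1 := by rw [hx]; exact e
    obtain rfl : x = 1 := θ.map_eq_one_iff.1 (Subtype.ext (congrArg Subtype.val this :))
    exact Subtype.ext (by rw [← hx, map_one]; rfl), by
    rw [Nat.card_eq_of_bijective _ b', F.cardH, F'.cardH]⟩
  refine ⟨(MulEquiv.ofBijective f' b').symm.trans (.ofBijective f b), fun h => ?_, fun h hh => ?_⟩
  · obtain ⟨a, rfl⟩ := (MulEquiv.ofBijective f' b').surjective h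
    rw [MulEquiv.trans_apply, MulEquiv.symm_apply_apply]; exact mm _ a.1.2
  · rw [show h = MulEquiv.ofBijective f' b' ⟨_, dK ⟨h, hh⟩⟩ from rfl, MulEquiv.trans_apply, MulEquiv.symm_apply_apply]
    exact hθ ⟨h, hh⟩

end Fr

end Cfsg.Agent.Co1A
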