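import Cfsg.Agent.Co1T.C0

/-! Characters of `V0 = C/1`; `h4` (no large subgroup of dodecads); `of_FF` (a weight preserving automorphism of `V0` is
induced by `M24`). -/

set_option autoImplicit false
set_option maxRecDepth 100000

namespace Cfsg.Agent.Co1T.Bc

open Subgroup Cfsg.Agent.Comp Cfsg.Agent.Golay Finset
open scoped Pointwise symmDiff

theorem gE_mem (i : ℕ) : EG.ofMask (gE i) ∈ GSupp := (ofMask_mem_supports_iff (gE_lt i)).2 (isG_gE i)

noncomputable def ev (i : ℕ) : V0 := ⟨eps _ (gE_mem i), eps_mem _⟩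

theorem ev_mul (i j : ℕ) : ev i * ev j = ev (i ^^^ j) :=
  Subtype.ext ((eps_mul _ _).trans (eps_congr (by rw [gE_xor, EG.ofMask_xor])))

theorem gE_full : gE 4095 = 2 ^ 24 - 1 := by decide +kernel

theorem ev_compl (i : ℕ) : ev (i ^^^ 4095) = ev i :=
  Subtype.ext (eps_eq_iff.2 (Or.inr (by rw [gE_xor, gE_full, EG.ofMask_compl, compl_compl])))

theorem ev_inj {i j : ℕ} (hi : i < 2048) (hj : j < 2048) (h : ev i = ev j) : i = j := by
  rcases eps_eq_iff.1 (congrArg Subtype.val h) with e | e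
  · exact (gE_inj (by omega) (by omega) (EG.ofMask_inj (gE_lt _) (gE_lt _) e)).symm
  · rw [← EG.ofMask_compl, ← gE_full, ← gE_xor] at e
    have := gE_inj (by omega) (Nat.xor_lt_two_pow (n := 12) (by omega) (by omega)) (EG.ofMask_inj (gE_lt _) (gE_lt _) e)
    have k : (i ^^^ j) ^^^ 0 = 4095 := by rw [this, Nat.xor_zero, Nat.xor_xor_cancel_left]
    have := Nat.xor_lt_two_pow (n := 11) hi hj
    rw [Nat.xor_zero] at k
    omega

/-- the index below `2048` of the class of a code word. -/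
def nr (s : ℕ) : ℕ := Bool.rec (low s) (Nat.xor (low s) 4095) (Nat.ble 2048 (low s))

theorem nr_lt (s : ℕ) : nr s < 2048 :=
  nblt.1 (allLt_iff.1 (by decide +kernel : allLt 4096 (fun l =>
    Nat.blt (Bool.rec l (Nat.xor l 4095) (Nat.ble 2048 l)) 2048) = true) _ (low_lt s))

theorem ev_nr {s : ℕ} (h : isG s = true) (hs : EG.ofMask s ∈ GSupp) : (ev (nr s) : CC) = eps _ hs := by
  have : (ev (low s) : CC) = eps _ hs := eps_congr (congrArg _ ((gE_and s).trans (isG_iff.1 h)))
  rw [← this, nr]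
  cases Nat.ble 2048 (low s)
  exacts [rfl, congrArg _ (ev_compl _)]

theorem ev_surj (v : V0) : ∃ i < 2048, ev i = v := by
  obtain ⟨c, hc, e⟩ := mem_V0.1 v.2
  obtain ⟨s, hs, rfl⟩ := mem_supports_iff.1 hc
  exact ⟨_, nr_lt s, Subtype.ext ((ev_nr hs hc).trans e.symm)⟩

noncomputable def idx (v : V0) : ℕ := (ev_surj v).choose

theorem idx_lt (v : V0) : idx v < 2048 := (ev_surj v).choose_spec.1

theorem ev_idx (v : V0) : ev (idx v) = v := (ev_surj v).choose_spec.2

theorem idx_ev {i : ℕ} (hi : i < 2048) : idx (ev i) = i := ev_inj (idx_lt _) hi (ev_idx _)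

theorem idx_mul (v w : V0) : idx (v * w) = idx v ^^^ idx w := by
  rw [← idx_ev (Nat.xor_lt_two_pow (n := 11) (idx_lt v) (idx_lt w)), ← ev_mul, ev_idx, ev_idx]

/-- the code word chosen in a class. -/
noncomputable def wd (v : V0) : Finset GolayPt := EG.ofMask (gE (idx v))

theorem wd_mem (v : V0) : wd v ∈ GSupp := gE_mem _

theorem eps_wd (v : V0) : eps _ (wd_mem v) = v := congrArg Subtype.val (ev_idx v)

theorem wd_mul (v w : V0) : wd (v * w) = wd v ∆ wd w := by rw [wd, idx_mul, gE_xor, EG.ofMask_xor]; rfl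

theorem wd_one : wd 1 = ∅ := by
  have := wd_mul 1 1
  rwa [mul_one, symmDiff_self] at this

theorem wd_cases {c : Finset GolayPt} (hc : c ∈ GSupp) {v : V0} (h : (v : CC) = eps c hc) : c = wd v ∨ c = (wd v)ᶜ :=
  eps_eq_iff.1 ((eps_wd v).trans h)

def sgn (S c : Finset GolayPt) : ℤ := (-1) ^ (S ∩ c).card

theorem sgn_comm (S c : Finset GolayPt) : sgn S c = sgn c S := by rw [sgn, inter_comm]; rfl

theorem sgn_add (S c d : Finset GolayPt) : sgn S (c ∆ d) = sgn S c * sgn S d := by
  have := congrArg ((-1 : ℤ) ^ ·) (card_symmDiff_add (S ∩ c) (S ∩ d))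
  simp only [pow_add, pow_mul, neg_one_sq, one_pow, mul_one] at this
  rw [sgn, show S ∩ c ∆ d = (S ∩ c) ∆ (S ∩ d) from inf_symmDiff_distrib_left .., this]; rfl

theorem sgn_add' (S T c : Finset GolayPt) : sgn (S ∆ T) c = sgn S c * sgn T c := by
  rw [sgn_comm, sgn_add, sgn_comm c, sgn_comm c]

theorem sgn_single (i : GolayPt) (c : Finset GolayPt) : sgn {i} c = if i ∈ c then -1 else 1 := by
  unfold sgn; split_ifs with h <;> simp [h]

theorem sgn_sq (S c : Finset GolayPt) : sgn S c * sgn S c = 1 := by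
  rw [← sgn_add, symmDiff_self]; simp [sgn]

noncomputable def chi (S : Finset GolayPt) : V0 →* ℤ where
  toFun v := sgn S (wd v)
  map_one' := by simp [wd_one, sgn]
  map_mul' v w := by rw [wd_mul, sgn_add]

theorem chi_add (S T : Finset GolayPt) (v : V0) : chi (S ∆ T) v = chi S v * chi T v := sgn_add' ..

theorem eq_of_chi {S T : Finset GolayPt} (h : ∀ v, chi S v = chi T v) (he : Even (S.card + T.card))
    (hc : S.card + T.card < 8) : S = T := by
  refine eq_of_symmDiff_small (mem_supp_of_even' fun o ho => ?_) hc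
  have k : Even (S ∆ T ∩ wd ⟨_, eps_mem ho.1⟩).card := (neg_one_pow_eq_one_iff_even (R := ℤ) (by decide)).1
    ((chi_add S T _).trans (by rw [h]; exact sgn_sq ..))
  rcases wd_cases ho.1 (v := ⟨_, eps_mem ho.1⟩) rfl with e | e <;> rw [e]
  · exact k
  · have := card_symmDiff_add S T
    have := card_inter_add_card_sdiff (S ∆ T) (wd ⟨_, eps_mem ho.1⟩)
    rw [← sdiff_eq_inter_compl]
    rw [Nat.even_iff] at *
    omega

/-- the weight invariant. -/
noncomputable def FF (v : V0) : ℤ := (24 - 2 * (wd v).card) ^ 2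

theorem FF_eq {c : Finset GolayPt} (hc : c ∈ GSupp) {v : V0} (h : (v : CC) = eps c hc) :
    FF v = (24 - 2 * c.card) ^ 2 := by
  rcases wd_cases hc h with e | e <;> rw [e, FF]
  have := card_add_card_compl (wd v)
  rw [card_pt] at this
  rw [show ((wd v)ᶜ.card : ℤ) = 24 - (wd v).card by omega]; ring

theorem sum_chi (v : V0) : ∑ p : GolayPt × GolayPt, chi ({p.1} ∆ {p.2}) v = FF v := by
  have : ∑ i, sgn {i} (wd v) = 24 - 2 * (wd v).card := by
    have := card_add_card_compl (wd v)
    rw [card_pt] at this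
    simp only [sgn_single, sum_ite, sum_const, filter_mem_eq_inter, univ_inter, ← mem_compl]
    simp; omega
  rw [FF, ← this, sq, sum_mul_sum, Fintype.sum_prod_type]
  exact sum_congr rfl fun i _ => sum_congr rfl fun j _ => sgn_add' ..

theorem _root_.Cfsg.Agent.Co1T.h4 {W : Subgroup CC} (hW : W ≤ V0) (h : ∀ w ∈ W, ¬ IsConj z0 w) : Nat.card W ≤ 16 := by
  classical
  have := Fintype.ofFinite W
  have k : ∀ {c} (hc : c ∈ GSupp), c.card = 8 → IsConj z0 (eps c hc) := fun hc h8 => by
    obtain ⟨g, rfl⟩ := octad_transM oct0_mem ⟨hc, h8⟩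
    exact isConj_iff.2 ⟨_, eps_conj g _⟩
  have e1 : ∑ w : W, FF (inclusion hW w) = 576 := by
    rw [sum_eq_single 1 (fun w _ h1 => ?_) (by simp), map_one, FF, wd_one]
    · rfl
    have e := eps_wd (inclusion hW w)
    have n : eps _ (wd_mem (inclusion hW w)) ≠ 1 := fun j => h1 (Subtype.ext (e.symm.trans j))
    rcases card_supp (wd_mem (inclusion hW w)) with c | c | c | c | c
    · exact absurd (eps_eq_one.2 (Or.inl (card_eq_zero.1 c))) n
    · exact absurd (e ▸ k _ c) (h w w.2)
    · rw [FF, c]; rfl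
    · exact absurd (e ▸ eps_compl (wd_mem _) ▸ k _ (by rw [card_compl, card_pt, c])) (h w w.2)
    · exact absurd (eps_eq_one.2 (Or.inr ((card_eq_iff_eq_univ _).1 (c.trans card_pt.symm)))) n
  have e2 : ∑ i : GolayPt, (Fintype.card W : ℤ) ≤ ∑ w : W, FF (inclusion hW w) := by
    simp only [← sum_chi]
    rw [sum_comm, Fintype.sum_prod_type]
    refine sum_le_sum fun i _ => le_trans ?_ (single_le_sum (fun j _ => ?_) (mem_univ i))
    · simp [chi, sgn]
    · have := sum_hom_units ((chi ({i} ∆ {j})).comp (inclusion hW))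
      simp only [MonoidHom.comp_apply] at this
      rw [this]; positivity
  rw [e1, sum_const, card_univ, card_pt, ← Nat.card_eq_fintype_card, nsmul_eq_mul] at e2
  obtain ⟨n, -, e⟩ := (Nat.dvd_prime_pow Nat.prime_two).1 (card_V0 ▸ card_dvd_of_le hW)
  rw [e] at e2 ⊢
  have : 2 ^ n < 2 ^ 5 := by zify at *; omega
  exact Nat.pow_le_pow_right (n := 2) (j := 4) two_pos (by have := (Nat.pow_lt_pow_iff_right one_lt_two).1 this; omega)

theorem ex_char {G ι : Type*} [Monoid G] [Fintype ι] (f g : ι → G →* ℤ) (h : ∀ x, ∑ i, f i x = ∑ i, g i x) (i : ι) :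
    ∃ j, f j = g i := by
  classical
  by_contra! hn
  have := DFunLike.congr_fun (linearIndependent_iff.1 (linearIndependent_monoidHom G ℤ)
    (∑ j, Finsupp.single (f j) 1 - ∑ j, Finsupp.single (g j) 1) (by
      ext x; simp [map_sum, Finset.sum_apply, h])) (g i)
  simp only [Finsupp.coe_sub, Pi.sub_apply, Finsupp.finset_sum_apply, Finsupp.single_apply, hn, if_false, sum_const_zero,
    zero_sub, Finsupp.coe_zero, Pi.zero_apply, neg_eq_zero] at this
  have := (sum_eq_zero_iff_of_nonneg fun j _ => by positivity).1 this i (mem_univ i)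
  simp at this

theorem star {B : GolayPt → Finset GolayPt} {o : GolayPt} (h0 : B o = ∅) (h : ∀ j k, j ≠ k → (B j ∆ B k).card = 2) :
    ∃ p, ∀ j, (B j ∆ {p}).card = 1 := by
  have c : ∀ j ≠ o, (B j).card = 2 := fun j hj => by
    have := h j o hj
    rwa [h0, ← bot_eq_empty, symmDiff_bot] at this
  have d : ∀ j ≠ o, ∀ k ≠ o, j ≠ k → (B j ∩ B k).card = 1 := fun j hj k hk e => by
    have := card_symmDiff_add (B j) (B k)
    rw [h j k e, c j hj, c k hk] at this
    omega
  have ex : ∀ S : Finset GolayPt, S.card < 24 → ∃ j, j ∉ S := fun S hS => by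
    by_contra! k
    rw [eq_univ_iff_forall.2 k, card_univ, card_pt] at hS
    omega
  obtain ⟨j, hj⟩ := ex {o} (by simp)
  obtain ⟨k, hk⟩ := ex {o, j} (card_le_two.trans_lt (by omega))
  simp only [mem_insert, mem_singleton, not_or] at hj hk
  obtain ⟨p, hp⟩ := card_eq_one.1 (d k hk.1 j hj hk.2)
  refine ⟨p, fun l => ?_⟩
  by_cases hl : l = o
  · rw [hl, h0, ← bot_eq_empty, bot_symmDiff, card_singleton]
  have := card_symmDiff_add (B l) {p}
  by_cases hp' : p ∈ B l
  · rw [c l hl, inter_singleton_of_mem hp', card_singleton] at this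
    omega
  exfalso
  have pm := mem_inter.1 (hp.ge (mem_singleton_self p))
  have n1 : l ≠ k := fun e => hp' (e ▸ pm.1)
  have n2 : l ≠ j := fun e => hp' (e ▸ pm.2)
  have e : B k ∆ B j = B l := by
    refine eq_of_card_inter_eq ?_ ((h k j hk.2).trans (c l hl).symm)
    have := card_symmDiff_add (B l ∩ B k) (B l ∩ B j)
    rw [d l hl k hk.1 n1, d l hl j hj n2, ← inter_inter_distrib_left, hp, inter_singleton_of_notMem hp'] at this
    rw [c l hl, show B l ∩ B k ∆ B j = (B l ∩ B k) ∆ (B l ∩ B j) from inf_symmDiff_distrib_left ..]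
    exact this
  obtain ⟨m, hm⟩ := ex {o, j, k, l} (card_le_four.trans_lt (by omega))
  simp only [mem_insert, mem_singleton, not_or] at hm
  have := sgn_add (B m) (B k) (B j)
  rw [e, sgn, sgn, sgn, d m hm.1 l hl hm.2.2.2, d m hm.1 k hk.1 hm.2.2.1, d m hm.1 j hj hm.2.1] at this
  exact absurd this (by decide)

theorem of_FF (a : V0 ≃* V0) (h : ∀ v, FF (a v) = FF v) : ∃ k ∈ N0, ∀ v : V0, (a v : CC) = k * v * k⁻¹ := by
  have c2 : ∀ i j : GolayPt, ({i} ∆ {j} : Finset _).card = if i = j then 0 else 2 := fun i j => by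
    have := card_symmDiff_add {i} {j}
    split_ifs with e
    · simp [e]
    · rwa [singleton_inter_of_notMem (by simpa), card_singleton, card_singleton] at this
  have c0 : ∀ i j : GolayPt, ({i} ∆ {j} : Finset _).card = 0 ∨ ({i} ∆ {j} : Finset _).card = 2 := fun i j => by
    rw [c2]; split_ifs <;> simp
  have : ∀ i j : GolayPt, ∃ S : Finset GolayPt, (S.card = 0 ∨ S.card = 2) ∧ ∀ v, chi S v = chi ({i} ∆ {j}) (a v) :=
    fun i j => by
      obtain ⟨p, e⟩ := ex_char (fun p : GolayPt × GolayPt => chi ({p.1} ∆ {p.2}))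
        (fun p => (chi ({p.1} ∆ {p.2})).comp a.toMonoidHom) (fun v => by
          rw [sum_chi]; exact ((sum_chi _).trans (h v)).symm) (i, j)
      exact ⟨_, c0 _ _, fun v => DFunLike.congr_fun e v⟩
  choose S hS hS' using this
  have e1 : ∀ i j k, S i j ∆ S i k = S j k := fun i j k => by
    have := card_symmDiff_add (S i j) (S i k)
    have := hS i j; have := hS i k; have := hS j k
    refine eq_of_chi (fun v => ?_) (by rw [Nat.even_iff]; omega) (by omega)
    rw [chi_add, hS', hS', hS', ← chi_add, symmDiff_comm ({i} : Finset GolayPt) {j}, symmDiff_assoc, symmDiff_symmDiff_cancel_left]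
  have e2 : ∀ j k, j ≠ k → (S j k).card = 2 := fun j k hn => (hS j k).resolve_left fun e => by
    have := eq_of_chi (S := ∅) (T := {j} ∆ {k}) (fun v => by
      rw [← a.apply_symm_apply v, ← hS', card_eq_zero.1 e]; simp [chi, sgn]) (by simp [c2, hn]) (by simp [c2, hn])
    simpa [c2, hn] using congrArg Finset.card this
  obtain ⟨p, hp⟩ := star (B := S none) (o := none) (by rw [← e1 none, symmDiff_self]; rfl)
    fun j k hn => by rw [e1, e2 j k hn]
  choose σ hσ using fun j => card_eq_one.1 (hp j)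
  have inj : Function.Injective σ := fun j k e => by_contra fun hn => by
    have := e2 j k hn
    rw [← e1 none, symmDiff_left_inj.1 ((hσ j).trans ((congrArg _ e).trans (hσ k).symm)), symmDiff_self] at this
    exact absurd this (by decide)
  let τ := (Equiv.ofBijective σ (Finite.injective_iff_bijective.1 inj)).symm
  have key : ∀ v, τ • wd v = wd (a v) ∨ τ • wd v = (wd (a v))ᶜ := fun v => by
    have k : ∀ j, sgn {σ j} (wd v) = sgn {none} (wd (a v)) * sgn {j} (wd (a v)) * sgn {p} (wd v) := fun j => by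
      rw [← hσ, sgn_add', ← sgn_add' {none}]; exact congrArg (· * sgn {p} (wd v)) (hS' none j v)
    have m : ∀ j, j ∈ τ • wd v ↔ σ j ∈ wd v := fun j => inv_smul_mem_iff.symm
    have t : ∀ (A B C D : Prop) [Decidable A] [Decidable B] [Decidable C] [Decidable D], (if A then (-1 : ℤ) else 1) =
        (if B then -1 else 1) * (if C then -1 else 1) * (if D then -1 else 1) → ((A ↔ C) ↔ (B ↔ D)) := by
      intro A B C D _ _ _ _ h
      split_ifs at h <;> simp_all
    simp only [sgn_single] at k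
    by_cases b : (none ∈ wd (a v) ↔ p ∈ wd v)
    · exact Or.inl (Finset.ext fun j => (m j).trans ((t _ _ _ _ (k j)).2 b))
    · exact Or.inr (Finset.ext fun j => (m j).trans ((by have := t _ _ _ _ (k j); tauto : _ ↔ ¬ j ∈ wd (a v)).trans
        mem_compl.symm))
  have ms : ∀ v, τ • wd v ∈ GSupp := fun v => by
    rcases key v with e | e <;> rw [e]
    exacts [wd_mem _, compl_mem_supp (wd_mem _)]
  have hτ : τ ∈ M24 := mem_M24_of_octads fun o ho => ⟨by
    rcases wd_cases ho.1 (v := ⟨_, eps_mem ho.1⟩) rfl with e | e <;> rw [e]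
    exacts [ms _, by rw [← smul_compl']; exact compl_mem_supp (ms _)], (card_smul_finset ..).trans ho.2⟩
  refine ⟨pm1 ⟨τ, hτ⟩, pm1_mem _, fun v => ?_⟩
  rw [← eps_wd v, eps_conj, ← eps_wd]
  exact eps_eq_iff.2 (key v)

end Cfsg.Agent.Co1T.Bc
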