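import Cfsg.Agent.Co1T.A3
import Cfsg.Agent.LES.Struct
import Cfsg.Agent.Geom.OmegaSimple

/-! Frames from the large extraspecial hypothesis (`fr_of`), `conj_into`, and `Fr.no_twist`: a weakly closed
elementary subgroup meeting `Q` in a maximal abelian subgroup distinguishes a frame from its twist by a reflection. -/

set_option autoImplicit false
set_option linter.unusedSectionVars false

namespace Cfsg.Agent.Co1A

open Cfsg.Agent.Geom Cfsg.Agent.Geom.Formed Subgroup Cfsg.Agent.BG Cfsg.Agent.LES Cfsg.Agent.PGrp Module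

variable {G : Type*} [Group G] [Finite G] {z x y u q : G} {Q : Subgroup G} {p : G → W} {μ : C1[z] →* O8}

theorem pg_of_sq {A : Subgroup G} (h2 : ∀ a ∈ A, a * a = 1) : IsPGroup 2 A := fun a =>
  ⟨1, Subtype.ext (by simpa [pow_two] using h2 a a.2)⟩

theorem conj_into {K L A : Subgroup G} (ho : Odd (K.relIndex L)) (hA : A ≤ L) (h2 : IsPGroup 2 A) :
    ∃ g ∈ L, cj g A ≤ K := by
  have : Fact (Nat.Prime 2) := ⟨Nat.prime_two⟩
  obtain ⟨P, hP⟩ := Sylow_exists 2 (K ⊓ L)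
  obtain ⟨g, hg, h⟩ := Sylow_Jsub (sylow_mk (hP.1.trans inf_le_right) hP.pg (by
    rw [← relIndex_mul_relIndex P (K ⊓ L) L hP.1 inf_le_right, inf_relIndex_right, Nat.prime_two.dvd_mul]
    exact fun h => h.elim hP.not_dvd ho.not_two_dvd_nat)) hA h2
  exact ⟨g, hg, h.trans (hP.1.trans inf_le_left)⟩

theorem omega_eq : Nonempty (Omega (ZMod 2) (quadFormPlus 4 (ZMod 2)) ≃* Om) := by
  rw [← coe_quadPlus]; exact ⟨omegaEquiv S⟩

theorem Om_perfect : commutator Om = ⊤ := by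
  rw [← map_subtype_inj, ← MonoidHom.range_eq_map, range_subtype, map_commutator_eq, range_subtype]
  exact commutator_perfect nd (by rw [rk]; decide)

theorem fr_of_quot {Q : Subgroup C1[z]} [Q.Normal] (h : LE (Q.map C1[z].subtype) z) (c : #Q = 2 ^ 9)
    (e : C1[z] ⧸ Q ≃* Omega (ZMod 2) (quadFormPlus 4 (ZMod 2))) : ∃ p μ, Fr z (Q.map C1[z].subtype) p μ := by
  obtain ⟨f⟩ := omega_eq
  refine exists_Fr h (by rw [card_map_of_injective (subtype_injective _), c]) ?_ ?_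
  · rw [card_eq_card_quotient_mul_card_subgroup Q, Nat.card_congr (e.trans f).toEquiv, card_Om, c, mul_comm]
  · rw [show (Q.map C1[z].subtype).subgroupOf C1[z] = Q from comap_map_eq_self_of_injective (subtype_injective _) Q]
    let π := (e.trans f).toMonoidHom.comp (QuotientGroup.mk' Q)
    have su : Function.Surjective π := (e.trans f).surjective.comp (QuotientGroup.mk'_surjective Q)
    have : π.ker = Q := by
      rw [← MonoidHom.comap_ker, (MonoidHom.ker_eq_bot_iff _).2 (e.trans f).injective, MonoidHom.comap_bot,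
        QuotientGroup.ker_mk']
    rw [← this, ← comap_map_eq, map_commutator_eq, MonoidHom.range_eq_top.2 su, ← commutator_def, Om_perfect, comap_top]

theorem fr_of {Q : Subgroup C1[z]} [Q.Normal] (hs : IsExtraspecialCentralizerSetting z Q 4)
    (e : C1[z] ⧸ Q ≃* Omega (ZMod 2) (quadFormPlus 4 (ZMod 2))) :
    (∃ p μ, Fr z (Q.map C1[z].subtype) p μ) ∧ ∃ u ∈ Q.map C1[z].subtype, IsConj z u ∧ u ≠ z := by
  obtain ⟨g, ⟨k, hg⟩, n⟩ := hs.2.2.2.2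
  exact ⟨fr_of_quot (Mon.setting_LE hs).1 hs.2.2.2.1 e, _, ⟨_, hg, rfl⟩, isConj_iff.2 ⟨g, rfl⟩, n⟩

theorem LE_sylow (h : LE Q z) : ∃ S : Sylow 2 G, z ∈ S ∧ ∀ s ∈ S, Commute s z := by
  have : Fact (Nat.Prime 2) := ⟨Nat.prime_two⟩
  obtain ⟨T, hT, lT⟩ := Sylow_superset le_top h.pg
  have := (h.mem_of_sylow (N := ⊤) hT lT (by rw [inf_top_eq]; exact fun e => h.z1 (mem_bot.1 (e ▸ lT h.zQ)))).2
  obtain ⟨S, rfl⟩ := sylow_of_sylowIn_top hT
  exact ⟨S, lT h.zQ, fun s hs => mem_cent1.1 (this hs)⟩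

namespace Fr
variable (F : Fr z Q p μ)
include F

/-- The image in `W` of a subgroup of `Q`. -/
def im (A : Subgroup G) : Submodule (ZMod 2) W := AddSubgroup.toZModSubmodule 2
  { carrier := {w | ∃ x ∈ A ⊓ Q, p x = w}
    zero_mem' := ⟨1, one_mem _, F.p1⟩
    add_mem' := fun ⟨x, hx, e⟩ ⟨y, hy, f⟩ => ⟨x * y, mul_mem hx hy, by rw [F.add hx.2 hy.2, e, f]⟩
    neg_mem' := fun h => by rwa [W_neg] }

theorem mem_im {A : Subgroup G} {w : W} : w ∈ F.im A ↔ ∃ x ∈ A ⊓ Q, p x = w := Iff.rfl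

theorem card_im {A : Subgroup G} (hz : z ∈ A) : 2 * 2 ^ finrank (ZMod 2) (F.im A) = #(A ⊓ Q : Subgroup G) := by
  let f : (A ⊓ Q : Subgroup G) →* Multiplicative W :=
    MonoidHom.mk' (fun x => .ofAdd (p x)) fun a b => congrArg Multiplicative.ofAdd (F.add a.2.2 b.2.2)
  have := f.ker.card_mul_index
  have o : orderOf (⟨z, mem_inf.2 ⟨hz, F.es.zQ⟩⟩ : (A ⊓ Q : Subgroup G)) = 2 := by rw [orderOf_mk, F.es.z2]
  rw [index_ker, show f.ker = zpowers ⟨z, mem_inf.2 ⟨hz, F.es.zQ⟩⟩ from Subgroup.ext fun a => by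
    rw [mem_zp o, Subtype.ext_iff, Subtype.ext_iff]; exact F.p0 a.2.2, Nat.card_zpowers, o] at this
  have k := Module.natCard_eq_pow_finrank (K := ZMod 2) (V := F.im A)
  rw [Nat.card_zmod] at k
  rw [← this, ← k]
  congr 1
  exact Nat.card_congr (Equiv.subtypeEquiv Multiplicative.ofAdd fun w =>
    ⟨fun ⟨x, hx, e⟩ => ⟨⟨x, hx⟩, congrArg Multiplicative.ofAdd e⟩, fun ⟨x, e⟩ => ⟨x, x.2, Multiplicative.ofAdd.injective e⟩⟩)

theorem no_twist (hf : ∃ u ∈ Q, IsConj z u ∧ u ≠ z) {V : Subgroup G} (hV : V ≤ C1[z]) (h2 : ∀ v ∈ V, v * v = 1)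
    (hz : z ∈ V) (c : #(V ⊓ Q : Subgroup G) = 32)
    (wk : ∀ A ≤ C1[z], (∀ a ∈ A, a * a = 1) → #A = #V → ∃ h ∈ C1[z], cj h A = V) {σ : O8} (hσ : σ ∉ Om) :
    ¬ (Ab Q p μ ↔ Ab Q (fun x => σ.1 (p x)) ((MulAut.conj σ).toMonoidHom.comp μ)) := fun H => by
  obtain ⟨φ, h1, h3⟩ := F.iso (F.twist σ) hf hf H
  let ψ := C1[z].subtype.comp φ.toMonoidHom
  have inj : Function.Injective ψ := (subtype_injective _).comp φ.injective
  obtain ⟨h, hh, e⟩ := wk ((V.subgroupOf C1[z]).map ψ) (fun _ ⟨a, _, e⟩ => e ▸ (φ a).2)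
    (fun _ ⟨a, ha, e⟩ => by rw [← e, ← map_mul, show a * a = 1 from Subtype.ext (h2 a ha), map_one])
    (by rw [card_map_of_injective inj, Nat.card_congr (subgroupOfEquivOfLe hV).toEquiv])
  have r : finrank (ZMod 2) (F.im V) = 4 := by
    have := F.card_im hz
    rw [c] at this
    exact Nat.pow_right_injective le_rfl (show 2 ^ _ = 2 ^ 4 by omega)
  have U : MaxTS S 4 (F.im V) := ⟨r, fun _ ⟨x, hx, e⟩ => e ▸ (F.sq hx.2).2 (h2 x hx.1)⟩
  have le : (F.im V).map ((μ ⟨h, hh⟩ * σ).1 : W →ₗ[ZMod 2] W) ≤ F.im V := by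
    rintro _ ⟨_, ⟨x, hx, rfl⟩, rfl⟩
    have k : (φ ⟨x, hV hx.1⟩).1 ∈ Q := (F.ker _).1 (by rw [h1]; exact ((F.twist σ).ker _).2 hx.2)
    refine ⟨h * φ ⟨x, hV hx.1⟩ * h⁻¹, ⟨e.le ⟨_, ⟨⟨x, hV hx.1⟩, hx.1, rfl⟩, rfl⟩, F.conj ⟨h, hh⟩ k⟩, ?_⟩
    rw [F.act ⟨h, hh⟩ _ k, h3 _ hx.2]; rfl
  have := (dick_eq_one_iff_even nd nex rk U (μ ⟨h, hh⟩ * σ)).2 (by
    rw [inf_eq_right.2 le, (U.map _).1]; decide)
  exact hσ ((Om.mul_mem_cancel_left (F.mem _)).1 (mem_Om.2 this))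

end Fr

end Cfsg.Agent.Co1A
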