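import Cfsg.Agent.Co1T.CV
import Cfsg.Agent.Co1T.M1
import Cfsg.Agent.LES.Img
import Cfsg.Prelude.Def_Local
import Cfsg.Prelude.Def_Transfer
import Cfsg.Prelude.Def_Classical

/-! The centraliser `H0 = 2^{1+8}.Ω⁺(8,2)` of the involution `z0` of `Co1`. -/

set_option autoImplicit false
set_option maxRecDepth 100000

namespace Cfsg.Agent.Co1T

open Subgroup Cfsg.Agent.Comp Cfsg.Agent.Leech Cfsg.Agent.Golay Cfsg.Agent.Mon MulAction CVh Cfsg.Agent.LES
open scoped Pointwise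

namespace CTh

theorem conjE {σ : MG} (h : σ ∈ fixF MG oct0) {c : Finset GolayPt} (hc : c ∈ GSupp) (hd : Disjoint c oct0) :
    pm1 σ * eps c hc * (pm1 σ)⁻¹ = eps c hc ∨ pm1 σ * eps c hc * (pm1 σ)⁻¹ = eps c hc * z0 := by
  obtain ⟨s, hs, rfl⟩ := mem_supports_iff.1 hc
  obtain ⟨a, ha, rfl⟩ := isG_iff_exists.1 hs
  obtain ⟨k, r, e⟩ := forall_E16 (f := fun k => allLt 4096 fun a => bor (not (Nat.beq (gE a &&& cO0) 0)) (bor
    (Nat.beq (img24 k (gE a)) (gE a)) (Nat.beq (img24 k (gE a)) (gE a ^^^ cO0 ^^^ (2 ^ 24 - 1))))) (by decide +kernel) σ h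
  have := allLt_iff.1 e a ha
  rw [(EG.ofMask_disjoint_iff (gE_lt a)).1 hd, bor_eq, bor_eq] at this
  rw [eps_conj, z0, eps_mul]
  rcases Bool.or_eq_true_iff.1 ((Bool.or_eq_true_iff.1 this).resolve_left (by decide)) with e | e
  · exact Or.inl (eps_congr (smul_mask r e))
  · exact Or.inr (eps_eq_iff.2 (Or.inr (by rw [smul_mask r e, EG.ofMask_compl, compl_compl, EG.ofMask_xor])))

def R (x y : CC) : Prop := x * y * x⁻¹ = y ∨ x * y * x⁻¹ = y * z0

theorem zz : z0 * z0 = 1 := eps_sq _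

theorem R.symm {x y : CC} (hx : Commute x z0) (hy : Commute y z0) (h : R x y) : R y x := by
  refine h.imp (fun e => cj_eq_iff_comm.2 (cj_eq_iff_comm.1 e).symm) fun e => ?_
  rw [mul_inv_eq_iff_eq_mul] at e ⊢
  rw [mul_assoc, ← hy.eq, ← mul_assoc, e, mul_assoc, hx.eq, mul_assoc, ← mul_assoc z0, zz, one_mul]

theorem R.mul {x y w : CC} (hy : Commute y z0) (hw : Commute w z0) (h : R x y) (h' : R x w) : R x (y * w) := by
  unfold R
  rw [← conj_mul]
  rcases h with h | h <;> rcases h' with h' | h' <;> rw [h, h']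
  · exact Or.inl rfl
  · exact Or.inr (mul_assoc ..).symm
  · exact Or.inr (by rw [mul_assoc, ← hw.eq, mul_assoc])
  · exact Or.inl (by rw [mul_assoc, hw.eq, ← mul_assoc z0, zz, one_mul])

theorem cz {x : CC} (h : x ∈ Q0) : Commute x z0 := mem_centralizer_singleton_iff.1 (Q0_le_H0 h)

theorem commQ : ∀ x ∈ Q0, ∀ y ∈ Q0, R x y := fun x hx y hy => by
  obtain ⟨c, hc, h1, σ, h2, rfl⟩ := mem_Q0.1 hx
  obtain ⟨d, hd, h3, τ, h4, e⟩ := mem_Q0.1 hy
  have k1 := cz ((eps_Q0 (hc := hc)).2 (Or.inl h1))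
  have k2 := cz ((eps_Q0 (hc := hd)).2 (Or.inl h3))
  have k3 := cz (pm1_Q0 h2)
  have k4 := cz (pm1_Q0 h4)
  refine R.symm (cz hy) (cz hx) (R.mul k1 k3 (R.symm k1 (cz hy) ?_) (R.symm k3 (cz hy) ?_)) <;> rw [e] <;>
    refine R.mul k2 k4 ?_ ?_
  · exact Or.inl (cj_eq_iff_comm.2 (V0_comm (eps_mem _) (eps_mem _)))
  · exact R.symm k4 k1 (conjE h4 hc h1)
  · exact conjE h2 hd h3
  · refine Or.inl (cj_eq_iff_comm.2 (Commute.map ?_ pm1))
    have := sq_fixOct oct0_mem (mul_mem h2 h4)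
    rw [mul_eq_one_iff_eq_inv, mul_inv_rev, ← eq_inv_of_mul_eq_one_left (sq_fixOct oct0_mem h2),
      ← eq_inv_of_mul_eq_one_left (sq_fixOct oct0_mem h4)] at this
    exact this

theorem sqQ : ∀ x ∈ Q0, x * x = 1 ∨ x * x = z0 := fun x hx => by
  obtain ⟨c, hc, h1, σ, h2, rfl⟩ := mem_Q0.1 hx
  rw [show eps c hc * pm1 σ * (eps c hc * pm1 σ) = eps c hc * (pm1 σ * eps c hc * (pm1 σ)⁻¹) * (pm1 σ * pm1 σ) by group,
    ← map_mul, sq_fixOct oct0_mem h2, map_one, mul_one]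
  exact (conjE h2 hc h1).imp (fun e => by rw [e, eps_sq]) fun e => by rw [e, ← mul_assoc, eps_sq, one_mul]

theorem lift8 {g : CG} {c : Finset GolayPt} (hc : c ∈ octads) (h : Commute (mk1 g) (eps c hc.1)) :
    g * sg c hc.1 * g⁻¹ = sg c hc.1 :=
  (lift_conj (cj_eq_iff_comm.2 h)).resolve_right fun e => by
    have := card_eq_of_conj e; have := card_compl' c; have := hc.2; omega

theorem sep {j i : GolayPt} (hj : j ∉ oct0) (h : i ≠ j) : ∃ c ∈ octads, Disjoint c oct0 ∧ j ∈ c ∧ i ∉ c := by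
  have k : ∀ s ∈ [6889680, 4038912, 832080, 6100032, 1351424, 4202192, 7409024, 2141072],
    (isG s = true ∧ pc24 s = 8) ∧ Disjoint (EG.ofMask s) oct0 := by decide +kernel
  obtain ⟨s, hs, e⟩ := (by decide +kernel : ∀ j ∉ oct0, ∀ i ≠ j, ∃ s ∈ [6889680, 4038912, 832080, 6100032, 1351424,
    4202192, 7409024, 2141072], j ∈ EG.ofMask s ∧ i ∉ EG.ofMask s) j hj i h
  exact ⟨_, ofMask_mem_octads (k s hs).1.1 (k s hs).1.2, (k s hs).2, e⟩

theorem centQ : ∀ x, (∀ y ∈ Q0, Commute x y) → x = 1 ∨ x = z0 := fun x h => by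
  obtain ⟨g, rfl⟩ := mk1_surj x
  have h1 : ∀ c (hc : c ∈ octads), Disjoint c oct0 → Commute (mk1 g) (eps c hc.1) := fun c hc hd =>
    h _ (eps_Q0.2 (Or.inl hd))
  have j0 : (some 4 : GolayPt) ∉ oct0 := by decide +kernel
  have h2 : ∀ i ≠ some 4, ((g • e8 (some 4) : LL) : V) i = 0 := fun i hi => by
    obtain ⟨c, hc, hd, k1, k2⟩ := sep j0 hi
    exact supp_act (lift8 hc (h1 c hc hd)) (fun l hl => by rw [e8_apply, if_neg]; rintro rfl; exact hl k1) i k2
  have h3 : sqNorm ((g • e8 (some 4) : LL) : V) = 64 := by rw [sqNorm_act, sqNorm_e8]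
  have h4 : ∀ i, 8 ∣ ((g • e8 (some 4) : LL) : V) i := fun i => by
    by_cases e : i = some 4
    · rw [sqNorm, Finset.sum_eq_single (some 4) (fun b _ hb => by rw [h2 b hb]; rfl) (by simp),
        show (64 : ℤ) = 8 ^ 2 from rfl, sq_eq_sq_iff_eq_or_eq_neg] at h3
      subst e; omega
    · rw [h2 i e]; exact dvd_zero _
  obtain ⟨j, e⟩ := cross_of_dvd h3 fun j => dvd_add (h4 _) (h4 _)
  obtain ⟨d, hd, σ, e⟩ := mem_N0.1 (mk1_mem_N0.2 (mem_NN_of_cross e))
  rw [e] at h h1 ⊢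
  have h5 : ∀ j ∉ oct0, σ • j = j := fun j hj => by_contra fun hn => by
    obtain ⟨c, hc, hd, k1, k2⟩ := sep hj hn
    exact k2 ((comm_pm hc).1 ((comm_left (eps_mem _)).1 (h1 c hc hd)) ▸ Finset.smul_mem_smul_finset k1)
  have h6 : σ = 1 := eq_one_of_fixOct oct1_mem (fun a ha => h5 a (Finset.disjoint_left.1 (by decide +kernel) ha))
    (p := some 8) (by decide +kernel) (h5 _ (by decide +kernel))
  rw [h6, map_one, mul_one] at h ⊢
  obtain ⟨s, hs, rfl⟩ := mem_supports_iff.1 hd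
  obtain ⟨a, ha, rfl⟩ := isG_iff_exists.1 hs
  have := allLt_iff.1 (by decide +kernel : allLt 4096 (fun a => bor (memL (gE a) [0, 2 ^ 24 - 1, cO0,
    cO0 ^^^ (2 ^ 24 - 1)]) (anyL gE16 fun k => band (not (Nat.beq (img24 k (gE a)) (gE a)))
      (not (Nat.beq (img24 k (gE a)) (gE a ^^^ (2 ^ 24 - 1)))))) = true) a ha
  rw [bor_eq, Bool.or_eq_true, memL_iff, anyL_iff] at this
  rcases this with e | ⟨k, hk, e⟩
  · rw [eps_eq_one, z0, eq_comm (b := eps _ _), eps_eq_iff, ← EG.ofMask_zero, ← EG.ofMask_full, ← EG.ofMask_compl]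
    simp only [List.mem_cons, List.not_mem_nil, or_false] at e
    rcases e with e | e | e | e <;> rw [e] <;> simp
  · obtain ⟨τ, hτ, r⟩ := codes_E16 k hk
    have := cj_eq_iff_comm.2 (h _ (pm1_Q0 hτ)).symm
    rw [eps_conj, eq_comm, eps_eq_iff, r.smul_ofMask, ← EG.ofMask_compl] at this
    rw [band_eq, Bool.and_eq_true, Bool.not_eq_true', Bool.not_eq_true', nbeq_false, nbeq_false] at e
    have l := isG_lt (isG_imgP r τ.2 hs)
    exact absurd (this.imp (EG.ofMask_inj l (gE_lt _)) (EG.ofMask_inj l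
      (Nat.xor_lt_two_pow (gE_lt _) (by decide)))) (not_or.2 e)

theorem normQ : ∀ x, Commute x z0 → x ∈ normalizer (Q0 : Set CC) := fun x h => by
  obtain ⟨g, rfl⟩ := mk1_surj x
  refine mem_normalizer_fintype ?_
  rintro _ ⟨k, hk, rfl⟩
  refine ⟨g * k * g⁻¹, fun i hi => ?_, by rw [map_mul, map_mul, map_inv]⟩
  have h1 := supp_act (lift8 oct0_mem (g := g⁻¹) (by rw [map_inv]; exact h.inv_left)) (x := e8 i)
    fun l hl => by rw [e8_apply, if_neg]; rintro rfl; exact hl hi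
  rw [mul_smul, mul_smul, (Leech.mem_fixS (g := k)).1 (fixS_of_smul (k := 8) (by decide) (sum_e8 _).symm
    (sum_mem fun j _ => ?_)), smul_inv_smul]
  by_cases hj : j ∈ oct0
  · exact zsmul_mem (Leech.mem_fixS.2 (hk j hj)) _
  · rw [h1 j hj, zero_smul]; exact zero_mem _

theorem le0 : LE Q0 z0 where
  z2 := ord_z0
  zQ := z0_Q
  zc _ := cz
  cen x _ := centQ x
  comm := commQ
  sq := sqQ
  nab := let ⟨σ, h, e⟩ := exq; ⟨_, pm1_Q0 h, _, u0_Q, fun k => z0_ne (by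
    rwa [cj_eq_iff_comm.2 k, left_eq_mul] at e)⟩
  cQ := centQ
  nQ := normQ

theorem le_rel {M : Subgroup CC} (h : N0 ⊓ H0 ≤ M) (hT : T ∈ M) : 135 ≤ N0.relIndex M := by
  have hs : EG.ofMask 4845570 ∈ GSupp := (ofMask_mem_supports_iff (by decide)).2 (by decide +kernel)
  have e : N0.comap mk1 = stabilizer CG (cl (e8 none)) := stab_cl ▸ Subgroup.ext fun _ => mk1_mem_N0
  rw [← map_comap_eq_self_of_surjective mk1_surj M, ← relIndex_comap, e]
  refine le_trans ?_ (index_stabilizer (M.comap mk1) (cl (e8 none))).ge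
  refine le_trans (by decide +kernel) (keyQ.le_ncard_orbitH (L := cX :: sgC 4845570 :: mapL pmC gOct) (.cons hT rX
    (.cons (h ⟨V0_le_N0 (eps_mem hs), V0_le_H0 (eps_mem hs)⟩) (RC_sgC hs) fun c hc => ?_)) ⟨_, PV_e8 none, rfl⟩ (fun k => k % 100003) 200)
  rw [mapL_eq, List.mem_map] at hc
  obtain ⟨s, hs, rfl⟩ := hc
  obtain ⟨σ, k, r⟩ := codes_Oct s hs
  exact ⟨_, h (mem_NH.2 ⟨_, empty_mem_supp, σ, k, by rw [eps_empty, one_mul]; rfl⟩), RC_pmC r⟩

open Cfsg.Agent.Co1A Cfsg.Agent.Geom Cfsg.Agent.Geom.Formed Cfsg.Agent.BG Cfsg.Agent.PGrp Module in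
theorem exists_mu {G : Type*} [Group G] [Finite G] {z : G} {Q : Subgroup G} (h : LE Q z) (hQ : #Q = 2 ^ 9) :
    (∃ μ : C1[z] →* O8, μ.ker = Q.subgroupOf C1[z]) ∨ #C1[z] ∣ 2 ^ 9 * 394813440 := by
  classical
  have E := h.toES.isES
  have nd' := E.quad_nondeg_iff.2 h.toES.center'
  have hz : ∀ g, cQ h g ⟨z, h.zQ⟩ = ⟨z, h.zQ⟩ := fun g => Subtype.ext (mul_inv_eq_iff_eq_mul.2 (mem_cent1.1 g.2))
  have ex : ∀ g : C1[z], ∃ a : OG E.Q, ∀ x, a.1 (E.π x) = E.π (cQ h g x) := fun g => by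
    have w : ∀ x, E.π (cQ h g (E.out (E.π x))) = E.π (cQ h g x) := fun x => by
      obtain ⟨u, hu, e⟩ := E.exists_out x
      rw [e, map_mul, E.mk_mul, (E.mk_eq_zero (x := cQ h g u)).2, add_zero]
      rw [← hz g]; exact mem_map_of_mem (cQ h g).toMonoidHom hu |> (MonoidHom.map_zpowers _ _).le
    let f : E.V →ₗ[ZMod 2] E.V := AddMonoidHom.toZModLinearMap 2 <| AddMonoidHom.mk'
      (fun v => E.π (cQ h g (E.out v))) fun a b => by
        obtain ⟨a, rfl⟩ := E.mk_surjective a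
        obtain ⟨b, rfl⟩ := E.mk_surjective b
        rw [← E.mk_mul, w, w, w, map_mul, E.mk_mul]
    have su : Function.Surjective f := fun v => by
      obtain ⟨a, rfl⟩ := E.mk_surjective v
      exact ⟨E.π ((cQ h g).symm a), (w _).trans (by rw [MulEquiv.apply_symm_apply])⟩
    refine ⟨⟨.ofBijective f su.bijective_of_finite, mem_isom_ofQuad.2 fun v => ?_⟩, w⟩
    obtain ⟨a, rfl⟩ := E.mk_surjective v
    have : E.Q (E.π (cQ h g a)) = 0 ↔ E.Q (E.π a) = 0 := by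
      rw [E.Q_eq_zero, E.Q_eq_zero, ← map_pow, MulEquiv.map_eq_one_iff]
    refine (congrArg E.Q (w a)).trans ?_
    revert this; generalize E.Q (E.π (cQ h g a)) = s; generalize E.Q (E.π a) = t; revert s t; decide
  choose ν hν using ex
  let ν' : C1[z] →* OG E.Q := MonoidHom.mk' ν fun a b => OG.ext fun v => by
    obtain ⟨x, rfl⟩ := E.mk_surjective v
    rw [OG.mul_apply, hν, hν, hν, map_mul]; rfl
  have ker : ∀ g, ν' g = 1 ↔ g.1 ∈ Q := fun g => by
    refine ⟨fun e => ?_, fun hg => OG.ext fun v => ?_⟩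
    · obtain ⟨q, hq, f⟩ := Co1A.inner h.toES (cQ h g) fun x => by rw [← hν, show ν g = 1 from e]; rfl
      have := h.cQ (q⁻¹ * g) fun y hy => by
        have : g.1 * y * g.1⁻¹ = q * y * q⁻¹ := f ⟨y, hy⟩
        refine cj_eq_iff_comm.1 ?_
        rw [show q⁻¹ * g.1 * y * (q⁻¹ * g.1)⁻¹ = q⁻¹ * (g.1 * y * g.1⁻¹) * q by group, this]; group
      rw [← Q.mul_mem_cancel_left (Q.inv_mem hq)]
      rcases this with e | e <;> rw [e]
      exacts [Q.one_mem, h.zQ]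
    · obtain ⟨x, rfl⟩ := E.mk_surjective v
      refine (hν g x).trans ?_
      rw [show cQ h g x = ⟨g, hg⟩ * x * ⟨g, hg⟩⁻¹ from rfl, E.mk_mul, E.mk_mul, E.mk_inv]
      show _ = E.π x
      abel
  have rk' : finrank (ZMod 2) E.V = 8 := E.finrank_eq hQ
  refine (E.wittIndex_cases h.toES.center' (m := 3) hQ).imp (fun wi => ?_) fun k => ?_
  · obtain ⟨e, he⟩ := exists_isIso_plus nd' (m := 4) rk' wi
    exact ⟨he.isomCongr.toMonoidHom.comp ν', Subgroup.ext fun g => he.isomCongr.map_eq_one_iff.trans (ker g)⟩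
  · have := card_subgroup_dvd_card ν'.range
    rw [card_isom_minus 3 nd' k rk', Nat.card_zmod] at this
    rw [← ν'.ker.card_mul_index, index_ker, show ν'.ker = Q.subgroupOf C1[z] from Subgroup.ext ker,
      card_subgroupOf fun x hx => mem_cent1.2 (h.zc x hx), hQ]
    exact Nat.mul_dvd_mul_left _ (this.trans (by decide))

end CTh

open CTh

theorem card_Q1 : Nat.card Q1 = 2 ^ 9 := (BG.card_subgroupOf Q0_le_H0).trans card_Q0

theorem CTh.card_rel {M : Subgroup CC} (h : N0 ⊓ H0 ≤ M) (h' : M ≤ H0) :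
    Nat.card M = 2 ^ 11 * 322560 * N0.relIndex M := by
  rw [← card_NH, ← BG.card_inf_mul_relIndex N0 M,
    le_antisymm (inf_le_inf_left N0 h') (le_inf inf_le_left h)]

theorem CTh.mu0 : N0.relIndex H0 = 135 ∧ ∃ μ : H0 →* Co1A.O8, μ.ker = Q1 := by
  have h1 := card_rel (M := H0) inf_le_right le_rfl
  have h2 := le_rel (M := H0) inf_le_right T_mem
  have h3 := odd_NH
  rcases exists_mu le0 card_Q0 with ⟨μ, h⟩ | h
  · refine ⟨?_, μ, h⟩
    have k := card_subgroup_dvd_card μ.range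
    rw [Co1A.card_O8, ← index_ker, ← Nat.mul_dvd_mul_iff_left (Nat.card_pos (α := μ.ker)), card_mul_index, h1, h,
      show Nat.card (Q0.subgroupOf _) = _ from card_Q1,
      show 2 ^ 9 * 348364800 = 2 ^ 11 * 322560 * (135 * 2) from rfl, Nat.mul_dvd_mul_iff_left (by decide)] at k
    exact le_antisymm (Nat.le_of_dvd (by decide) ((Nat.coprime_two_right.2 h3).dvd_of_dvd_mul_right k)) h2
  · rw [h1, show 2 ^ 9 * 394813440 = 2 ^ 11 * 322560 * (153 * 2) from rfl, Nat.mul_dvd_mul_iff_left (by decide)] at h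
    have k := (Dvd.intro_left _ h1.symm).trans (card_subgroup_dvd_card H0)
    rw [card_Co1] at k
    have := Nat.le_of_dvd (by decide) (Nat.dvd_gcd ((Nat.coprime_two_right.2 h3).dvd_of_dvd_mul_right h) k)
    exact absurd (h2.trans this) (by decide)

theorem relIndex_NH : N0.relIndex H0 = 135 := mu0.1

theorem card_H0 : Nat.card H0 = 2 ^ 9 * 174182400 := by
  rw [card_rel (M := H0) inf_le_right le_rfl, relIndex_NH]; rfl

theorem H0_eq : H0 = closure (((N0 ⊓ H0 : Subgroup CC) : Set CC) ∪ {T}) := by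
  have h1 : Subgroup.closure (((N0 ⊓ H0 : Subgroup CC) : Set CC) ∪ {T}) ≤ H0 :=
    (closure_le _).2 (Set.union_subset (fun _ h => h.2) (by simpa using T_mem))
  have h2 : N0 ⊓ H0 ≤ Subgroup.closure (((N0 ⊓ H0 : Subgroup CC) : Set CC) ∪ {T}) := fun _ h => subset_closure (Or.inl h)
  refine (eq_of_le_of_card_ge h1 ?_).symm
  rw [card_rel h2 h1, card_rel (M := H0) inf_le_right le_rfl, relIndex_NH]
  exact Nat.mul_le_mul_left _ (le_rel h2 (subset_closure (Or.inr rfl)))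

theorem Q1_normal : Q1.Normal := ⟨fun _ hn g => le0.conj_mem (mem_centralizer_singleton_iff.1 g.2) hn⟩

theorem cent_Q1 : centralizer (Q1 : Set H0) ≤ Q1 := fun x hx => by
  rcases centQ x fun y hy => congrArg Subtype.val (hx ⟨y, Q0_le_H0 hy⟩ hy).symm with e | e <;>
    rw [Q1, mem_subgroupOf, e]
  exacts [one_mem _, z0_Q]

theorem Q1_es : Cfsg.IsExtraspecial 2 Q1 := by
  have := le0.toES.image (MonoidHom.id H0) le_rfl Q0_le_H0 z0_Q (fun e => z0_ne (congrArg Subtype.val e))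
    (fun x _ h => (centQ x h).imp Subtype.ext Subtype.ext) le0.nab
  rw [Subgroup.map_id] at this
  exact this.isExtraspecial

theorem CTh.mu1 : ∃ μ : H0 →* Co1A.O8, μ.ker = Q1 ∧ μ.range = Co1A.Om := by
  obtain ⟨μ, h⟩ := mu0.2
  have h1 := μ.ker.card_mul_index
  rw [index_ker, h, card_Q1, card_H0, Nat.mul_right_inj (by decide)] at h1
  have h2 := μ.range.card_mul_index
  rw [h1, Co1A.card_O8] at h2
  have h3 : μ.range.index = 2 := by omega
  refine ⟨μ, h, (eq_of_le_of_card_ge (commutator_le.2 fun a _ b _ => ?_) (h1.trans Co1A.card_Om.symm).le).symm⟩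
  simp only [commutatorElement_def, mul_mem_iff_of_index_two h3, inv_mem_iff]
  tauto

theorem quot_H0 [Q1.Normal] : Nonempty (H0 ⧸ Q1 ≃* Cfsg.Omega (ZMod 2) (Cfsg.quadFormPlus 4 (ZMod 2))) := by
  obtain ⟨μ, h1, h2⟩ := mu1
  obtain ⟨f⟩ := Co1A.omega_eq
  exact ⟨(((QuotientGroup.quotientMulEquivOfEq h1.symm).trans (QuotientGroup.quotientKerEquivRange μ)).trans
    (MulEquiv.subgroupCongr h2)).trans f.symm⟩

theorem CTh.simple_Om : IsSimpleGroup Co1A.Om := by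
  have := Geom.isSimpleGroup_POmega Co1A.nd (by rw [Co1A.rk]; decide)
  have h := Geom.card_POmega_mul Co1A.nd Co1A.nex (by rw [Co1A.rk]; decide)
  have k := card_eq_card_quotient_mul_card_subgroup (center Co1A.Om)
  rw [if_pos (show (2 : ZMod 2) = 0 from rfl), Co1A.card_O8] at h
  rw [Co1A.card_Om, show Nat.card (Co1A.Om ⧸ center Co1A.Om) = 174182400 from
    Nat.eq_of_mul_eq_mul_left two_pos h] at k
  have e : center Co1A.Om = ⊥ := card_eq_one.1 (by omega)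
  exact ((QuotientGroup.quotientMulEquivOfEq e).trans QuotientGroup.quotientBot).symm.isSimpleGroup

theorem fstar_H0 : Cfsg.generalizedFittingSubgroup H0 = Q1 := by
  have := Q1_normal
  have : Fact (Nat.Prime 3) := ⟨Nat.prime_three⟩
  have := simple_Om
  obtain ⟨f⟩ := quot_H0
  obtain ⟨f'⟩ := Co1A.omega_eq
  have := (f.trans f').isSimpleGroup
  have hp : IsPGroup 2 Q1 := IsPGroup.of_card card_Q1
  obtain ⟨x, hx⟩ := exists_prime_orderOf_dvd_card' (G := H0) 3 (by rw [card_H0]; decide)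
  have h1 : ∀ n : ℕ, x ^ 2 ^ n ≠ 1 := fun n e => by
    have := orderOf_dvd_of_pow_eq_one e
    rw [hx] at this
    exact absurd (Nat.prime_three.dvd_of_dvd_pow this) (by decide)
  refine fstar_eq Q1 hp x (fun K hK l => ?_) h1 fun h => ?_
  · have := ((hK.map _ (QuotientGroup.mk'_surjective Q1)).eq_bot_or_eq_top).resolve_left fun e => l.not_ge (by
      rwa [Subgroup.map_eq_bot_iff, QuotientGroup.ker_mk'] at e)
    rw [← comap_map_eq_self (f := QuotientGroup.mk' Q1) (H := K) (by rw [QuotientGroup.ker_mk']; exact l.le), this]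
    trivial
  · obtain ⟨n, e⟩ := hp ⟨x, sup_le le_rfl cent_Q1 h⟩
    exact h1 n (congrArg Subtype.val e)

theorem nwc_H0 : ∃ g : CC, (∃ hq : g * z0 * g⁻¹ ∈ H0, (⟨g * z0 * g⁻¹, hq⟩ : H0) ∈ Q1) ∧ g * z0 * g⁻¹ ≠ z0 :=
  ⟨g0, by rw [g0_z0]; exact ⟨⟨Q0_le_H0 u0_Q, u0_Q⟩, u0_ne⟩⟩

end Cfsg.Agent.Co1T
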