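import Cfsg.Agent.Co1T.Bc
import Cfsg.Agent.S1565

/-! The subgroup `V0 = 2^11` of `Co1`, its normaliser `N0`, and the subgroup `Q0`. -/

set_option autoImplicit false
set_option maxRecDepth 100000

namespace Cfsg.Agent.Co1T

open Subgroup Cfsg.Agent.Comp Cfsg.Agent.Leech Cfsg.Agent.Golay Cfsg.Agent.Mon MulAction
open scoped Pointwise

namespace CVh

noncomputable def trC (g : CG) : ℤ := ∑ j, ((g • e8 j : LL) : V) j

theorem trC_comm (g h : CG) : trC (g * h) = trC (h * g) := by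
  have k : ∀ g h : CG, 8 * trC (g * h) = ∑ k, ∑ j, ((h • e8 k : LL) : V) j * ((g • e8 j : LL) : V) k := fun g h => by
    rw [trC, Finset.mul_sum]
    refine Finset.sum_congr rfl fun k _ => ?_
    have := congrFun (sum_cols g (h • e8 k)) k
    rw [Finset.sum_apply] at this
    rw [mul_smul]; exact this.symm
  have := k h g
  rw [Finset.sum_comm] at this
  simp only [mul_comm (((g • e8 _ : LL) : V) _)] at this
  have := k g h
  omega

theorem trC_sg {c : Finset GolayPt} (hc : c ∈ GSupp) : trC (sg c hc) = 8 * (24 - 2 * c.card) := by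
  have := Finset.card_add_card_compl c
  rw [card_pt] at this
  simp only [trC, sg_apply, e8_apply, if_true, Finset.sum_ite, Finset.sum_const, Finset.filter_mem_eq_inter,
    Finset.univ_inter, ← Finset.mem_compl]
  simp; omega

theorem card_compl' (c : Finset GolayPt) : c.card + cᶜ.card = 24 := (Finset.card_add_card_compl c).trans card_pt

theorem conj_of {c d : Finset GolayPt} {hc : c ∈ GSupp} {hd : d ∈ GSupp} (h : ∃ σ : MG, σ • c = d) :
    ∃ k ∈ N0, k * eps c hc * k⁻¹ = eps d hd := by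
  obtain ⟨σ, rfl⟩ := h
  exact ⟨_, pm1_mem σ, eps_conj σ hc⟩

theorem orb_z {c : Finset GolayPt} {hc : c ∈ GSupp} (h : c.card = 8 ∨ c.card = 16) :
    ∃ k ∈ N0, k * z0 * k⁻¹ = eps c hc := by
  rcases h with h | h
  · exact conj_of (octad_transM oct0_mem ⟨hc, h⟩)
  · rw [← eps_compl hc]
    exact conj_of (octad_transM oct0_mem ⟨compl_mem_supp hc, by have := card_compl' c; omega⟩)

theorem orb_t {c : Finset GolayPt} {hc : c ∈ GSupp} (h : c.card = 12) : ∃ k ∈ N0, k * t0 * k⁻¹ = eps c hc :=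
  conj_of (dodecad_transM dod0_mem ⟨hc, h⟩)

theorem comm_pm {σ : MG} {o} (ho : o ∈ octads) : Commute (pm1 σ) (eps o ho.1) ↔ σ ∈ stabilizer MG o := by
  rw [commute_iff_eq, ← mul_inv_eq_iff_eq_mul, eps_conj, eq_comm, eps_eq_iff]
  refine ⟨fun h => h.resolve_right fun e => ?_, Or.inl⟩
  have := congrArg Finset.card e
  rw [Finset.card_smul_finset, Finset.card_compl, card_pt, ho.2] at this
  omega

theorem comm_left {c : Finset GolayPt} {hc : c ∈ GSupp} {x y : CC} (hx : x ∈ V0) :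
    Commute (eps c hc * y) x ↔ Commute y x :=
  ⟨fun h => by
    have := (Commute.inv_left (V0_comm (eps_mem hc) hx)).mul_left h
    rwa [inv_mul_cancel_left] at this, Commute.mul_left (V0_comm (eps_mem hc) hx)⟩

theorem eq_one_of_oct {σ : MG} (h : ∀ o ∈ octads, σ • o = o) : σ = 1 := by
  refine Subtype.ext (Equiv.ext fun p => by_contra fun hn => ?_)
  obtain ⟨g, e⟩ := list_transM (l := [none, some 4]) (l' := [p, σ • p]) (by decide) (List.nodup_cons.2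
    ⟨fun h => hn (List.mem_singleton.1 h).symm, List.nodup_singleton _⟩) (by decide) rfl
  simp only [List.map, List.cons.injEq] at e
  have h1 : p ∈ g • oct0 := e.1 ▸ Finset.smul_mem_smul_finset (by decide +kernel)
  have h2 := Finset.smul_mem_smul_finset (a := σ) h1
  rw [h _ (inv_octads g _ oct0_mem), ← e.2.1, Finset.smul_mem_smul_finset_iff] at h2
  exact absurd h2 (by decide +kernel)

theorem sg_neg_iff {c : Finset GolayPt} {hc : c ∈ GSupp} {x : LL} : sg c hc • x = -x ↔ ∀ i ∉ c, (x : V) i = 0 := by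
  refine ⟨fun h i hi => ?_, fun h => Subtype.ext (funext fun i => ?_)⟩
  · have := sg_apply hc x i
    rw [h, if_neg hi, AddSubgroup.coe_neg, Pi.neg_apply] at this
    omega
  · rw [sg_apply, AddSubgroup.coe_neg, Pi.neg_apply]
    split_ifs with hi
    exacts [rfl, by rw [h i hi]; rfl]

theorem supp_act {g : CG} {c d : Finset GolayPt} {hc : c ∈ GSupp} {hd : d ∈ GSupp}
    (h : g * sg c hc * g⁻¹ = sg d hd) {x : LL} (hx : ∀ i ∉ c, (x : V) i = 0) : ∀ i ∉ d, ((g • x : LL) : V) i = 0 :=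
  (sg_neg_iff (hc := hd)).1 (by rw [← h, mul_smul, mul_smul, inv_smul_smul, sg_neg_iff.2 hx, smul_neg])

theorem four_dvd {D : Finset GolayPt} (hD : D ∈ dodecads) {x : LL} (h : sqNorm (x : V) = 32)
    (hx : ∀ i ∉ D, (x : V) i = 0) (i : GolayPt) : 4 ∣ (x : V) i := by
  rcases mem_iff'.1 x.2 with ⟨a, e, ha, -⟩ | ⟨a, e, -⟩
  · have h1 := card_oddS_le a
    rw [sqNorm_of_two e] at h
    have h2 : oddS a ∩ D = oddS a := Finset.inter_eq_left.2 fun j hj => by_contra fun hn => by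
      have := hx j hn; have := e j; have := Int.odd_iff.1 (mem_oddS.1 hj); omega
    have h3 := card_symmDiff_add (oddS a) D
    have h4 := card_supp (symmDiff_mem_supp ha hD.1)
    have h5 := card_supp ha
    rw [h2, hD.2] at h3
    have h6 : i ∉ oddS a := by rw [Finset.card_eq_zero.1 (by omega : (oddS a).card = 0)]; simp
    rw [mem_oddS, Int.odd_iff] at h6
    have := e i; omega
  · obtain ⟨j, hj⟩ : Dᶜ.Nonempty := Finset.card_pos.1 (by have := card_compl' D; have := hD.2; omega)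
    have := hx j (Finset.mem_compl.1 hj); have := e j; omega

theorem mem_NN_dod {g : CG} {D E : Finset GolayPt} (hD : D ∈ dodecads) (hE : E ∈ dodecads)
    (h : g * sg D hD.1 * g⁻¹ = sg E hE.1) : g ∈ NN := by
  obtain ⟨i, hi⟩ : D.Nonempty := Finset.card_pos.1 (by have := hD.2; omega)
  have h0 := supp_act h (x := e8 i) fun j hj => by rw [e8_apply, if_neg]; rintro rfl; exact hj hi
  have hn : sqNorm ((g • e8 i : LL) : V) = 64 := by rw [sqNorm_act, sqNorm_e8]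
  have h1 : ∀ k ∈ E, ∀ l ∈ E, k ≠ l → ∀ s : ℤˣ, 8 ∣ ((g • e8 i : LL) : V) k + s * ((g • e8 i : LL) : V) l :=
    fun k hk l hl e s => by
    have a : ∀ y : V, dotInt y (d4 k l s) = 4 * (y k + s * y l) := fun y => by
      simp only [dotInt, d4_apply, mul_add, mul_ite, mul_zero, Finset.sum_add_distrib, Finset.sum_ite_eq',
        Finset.mem_univ, if_true]; ring
    have b := four_dvd hD (x := g⁻¹ • d4 k l s) (by
      rw [sqNorm_act, sqNorm_eq, a, d4_apply, d4_apply, if_pos rfl, if_pos rfl, if_neg e, if_neg e.symm]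
      rcases Int.units_eq_one_or s with rfl | rfl <;> rfl) (supp_act (hc := hE.1) (hd := hD.1) (by rw [← h]; group)
      fun j hj => by rw [d4_apply, if_neg, if_neg]; rfl; all_goals rintro rfl; contradiction) i
    have c := dot_act' g (e8 i) (d4 k l s)
    rw [a, dot_comm, dot_e8] at c
    omega
  generalize hy : g • e8 i = y at h0 hn h1
  obtain ⟨k, hk, h2⟩ : ∃ k ∈ E, |(y : V) k| < 4 := by
    by_contra! h2
    have : ∑ _j ∈ E, (16 : ℤ) ≤ sqNorm (y : V) := (Finset.sum_le_sum fun j hj => by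
      have := h2 j hj; rw [← sq_abs]; nlinarith).trans
      (Finset.sum_le_sum_of_subset_of_nonneg (Finset.subset_univ E) fun _ _ _ => sq_nonneg _)
    rw [Finset.sum_const, hE.2] at this
    simp at this; omega
  obtain ⟨l, hl, e⟩ := Finset.exists_mem_ne (s := E) (by have := hE.2; omega) k
  have h3 := h1 k hk l hl e.symm 1
  have h4 := h1 k hk l hl e.symm (-1)
  rw [abs_lt] at h2
  simp only [Units.val_one, Units.val_neg] at h3 h4
  have h5 : ∀ j, 8 ∣ (y : V) j := fun j => by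
    by_cases hj : j ∈ E
    · by_cases e : k = j
      · subst e; omega
      · have := h1 k hk j hj e 1
        simp only [Units.val_one] at this; omega
    · rw [h0 j hj]; exact dvd_zero _
  obtain ⟨j, e⟩ := cross_of_dvd hn fun j => dvd_add (h5 _) (h5 _)
  exact mem_NN_of_cross (hy ▸ e)

end CVh

open CVh

theorem card_eq_of_conj {g : CG} {c d : Finset GolayPt} {hc : c ∈ GSupp} {hd : d ∈ GSupp}
    (h : g * sg c hc * g⁻¹ = sg d hd) : c.card = d.card := by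
  have := congrArg trC h
  rw [trC_comm, inv_mul_cancel_left, trC_sg, trC_sg] at this
  omega

theorem CVh.lift_conj {g : CG} {c d : Finset GolayPt} {hc : c ∈ GSupp} {hd : d ∈ GSupp}
    (h : mk1 g * eps c hc * (mk1 g)⁻¹ = eps d hd) :
    g * sg c hc * g⁻¹ = sg d hd ∨ g * sg c hc * g⁻¹ = sg dᶜ (compl_mem_supp hd) := by
  rw [eps, eps, ← map_inv, ← map_mul, ← map_mul, eq_comm, mk1_eq, sg_neg] at h
  exact h

theorem conj_eps {c d : Finset GolayPt} {hc : c ∈ GSupp} {hd : d ∈ GSupp} (h : IsConj (eps c hc) (eps d hd)) :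
    c.card = d.card ∨ c.card + d.card = 24 := by
  obtain ⟨k, h⟩ := isConj_iff.1 h
  obtain ⟨g, rfl⟩ := mk1_surj k
  refine (lift_conj h).imp card_eq_of_conj fun h => ?_
  rw [card_eq_of_conj h, add_comm, card_compl']

theorem conj_z0_iff {c : Finset GolayPt} {hc : c ∈ GSupp} : IsConj z0 (eps c hc) ↔ c.card = 8 ∨ c.card = 16 :=
  ⟨fun h => by have := conj_eps h; have := oct0_mem.2; omega, fun h =>
    let ⟨k, _, e⟩ := orb_z h; isConj_iff.2 ⟨k, e⟩⟩

theorem conj_t0_iff {c : Finset GolayPt} {hc : c ∈ GSupp} : IsConj t0 (eps c hc) ↔ c.card = 12 :=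
  ⟨fun h => by have := conj_eps h; have := dod0_mem.2; omega, fun h =>
    let ⟨k, _, e⟩ := orb_t h; isConj_iff.2 ⟨k, e⟩⟩

theorem not_conj_z0_t0 : ¬ IsConj z0 t0 := fun h => by
  have := conj_z0_iff.1 h; have := dod0_mem.2; omega

theorem V0_orb : ∀ v ∈ V0, v = 1 ∨ (∃ k ∈ N0, k * z0 * k⁻¹ = v) ∨ ∃ k ∈ N0, k * t0 * k⁻¹ = v := fun v hv => by
  obtain ⟨c, hc, rfl⟩ := mem_V0.1 hv
  rcases card_supp hc with h | h | h | h | h
  · exact Or.inl (eps_eq_one.2 (Or.inl (Finset.card_eq_zero.1 h)))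
  · exact Or.inr (Or.inl (orb_z (Or.inl h)))
  · exact Or.inr (Or.inr (orb_t h))
  · exact Or.inr (Or.inl (orb_z (Or.inr h)))
  · exact Or.inl (eps_eq_one.2 (Or.inr (Finset.eq_univ_of_card c (h.trans card_pt.symm))))

theorem CVh.ncard_V0 {p : CC → Prop} {pb : ℕ → Bool} (h : ∀ i, p (Bc.ev i) ↔ pb i = true) :
    {v : CC | v ∈ V0 ∧ p v}.ncard = countLt 2048 pb := by
  rw [countLt_eq, ← Set.ncard_coe_finset]
  refine (Set.ncard_congr (fun i _ => (Bc.ev i : CC)) (fun i hi => ?_) (fun i j hi hj e => ?_) fun v hv => ?_).symm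
  · exact ⟨(Bc.ev i).2, (h i).2 (Finset.mem_filter.1 hi).2⟩
  · exact Bc.ev_inj (Finset.mem_range.1 (Finset.mem_filter.1 hi).1) (Finset.mem_range.1 (Finset.mem_filter.1 hj).1)
      (Subtype.ext e)
  · obtain ⟨i, hi, e⟩ := Bc.ev_surj ⟨v, hv.1⟩
    have e : (Bc.ev i : CC) = v := congrArg Subtype.val e
    exact ⟨i, Finset.mem_filter.2 ⟨Finset.mem_range.2 hi, (h i).1 (e ▸ hv.2)⟩, e⟩

theorem ncard_z0 : {v : CC | v ∈ V0 ∧ IsConj z0 v}.ncard = 759 :=
  (ncard_V0 (pb := fun i => bor (Nat.beq (pc24 (gE i)) 8) (Nat.beq (pc24 (gE i)) 16)) fun i => by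
    rw [bor_eq, Bool.or_eq_true, nbeq, nbeq, ← card_ofMask24]; exact conj_z0_iff).trans (by decide +kernel)

theorem ncard_t0 : {v : CC | v ∈ V0 ∧ IsConj t0 v}.ncard = 1288 :=
  (ncard_V0 (pb := fun i => Nat.beq (pc24 (gE i)) 12) fun i => by
    rw [nbeq, ← card_ofMask24]; exact conj_t0_iff).trans (by decide +kernel)

theorem ex_z' : ∃ z' ∈ V0, IsConj z0 z' ∧ z' ≠ z0 ∧ IsConj (z0 * z') t0 := by
  have h : EG.ofMask 4845570 ∈ GSupp := (ofMask_mem_supports_iff (by decide)).2 (by decide +kernel)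
  refine ⟨_, eps_mem h, conj_z0_iff.2 (by decide +kernel), fun e => ?_, ?_⟩
  · rcases eps_eq_iff.1 e with e | e <;> exact absurd e (by decide +kernel)
  · rw [z0, eps_mul]; exact (conj_t0_iff.2 (by decide +kernel)).symm

theorem CVh.coatom_N0 : IsCoatom N0 := by
  refine ⟨fun e => absurd (e ▸ card_N0) (by rw [card_top, card_Co1]; norm_num), fun K hK => ?_⟩
  rw [← map_comap_eq_self_of_surjective mk1_surj K, coatom_NN.2 (K.comap mk1), map_top_of_surjective _ mk1_surj]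
  refine lt_of_le_of_ne (map_le_iff_le_comap.1 hK.le) fun e => hK.ne ?_
  rw [← map_comap_eq_self_of_surjective mk1_surj K, ← e]; rfl

theorem norm_V0 : normalizer (V0 : Set CC) = N0 := by
  have h : N0 ≤ normalizer (V0 : Set CC) := fun k hk => mem_normalizer_fintype fun v hv => V0_conj hk hv
  refine (coatom_N0.le_iff.1 h).resolve_left fun e => ?_
  haveI := simple_Co1
  rcases (normalizer_eq_top_iff.1 e).eq_bot_or_eq_top with e | e
  · exact absurd (e ▸ card_V0) (by simp)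
  · exact absurd (e ▸ card_V0) (by rw [card_top, card_Co1]; norm_num)

theorem cent_V0 : centralizer (V0 : Set CC) = V0 := by
  refine le_antisymm (fun k hk => ?_) fun v hv w hw => V0_comm hw hv
  obtain ⟨c, hc, σ, rfl⟩ := mem_N0.1 (norm_V0.le (centralizer_le_normalizer _ hk))
  rw [eq_one_of_oct (σ := σ) fun o ho => (comm_pm ho).1 ((comm_left (eps_mem _)).1 (hk _ (eps_mem ho.1)).symm),
    map_one, mul_one]
  exact eps_mem hc

theorem cent_t0 : centralizer ({t0} : Set CC) ≤ N0 := fun k hk => by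
  obtain ⟨g, rfl⟩ := mk1_surj k
  rw [mem_centralizer_singleton_iff, ← mul_inv_eq_iff_eq_mul] at hk
  exact mk1_mem_N0.2 ((lift_conj hk).elim (mem_NN_dod dod0_mem dod0_mem)
    (mem_NN_dod dod0_mem (compl_mem_dodecads dod0_mem)))

theorem mem_NH {k : CC} : k ∈ N0 ⊓ H0 ↔ ∃ c hc, ∃ σ : MG, σ • oct0 = oct0 ∧ k = eps c hc * pm1 σ := by
  refine ⟨fun h => ?_, ?_⟩
  · obtain ⟨c, hc, σ, rfl⟩ := mem_N0.1 h.1
    exact ⟨c, hc, σ, (comm_pm oct0_mem).1 ((comm_left z0_V).1 (mem_centralizer_singleton_iff.1 h.2)), rfl⟩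
  · rintro ⟨c, hc, σ, h, rfl⟩
    exact ⟨mem_N0.2 ⟨c, hc, σ, rfl⟩, mem_centralizer_singleton_iff.2 ((comm_left z0_V).2 ((comm_pm oct0_mem).2 h))⟩

theorem CVh.card_split {S W : Subgroup CC} {K : Subgroup MG} (hW : W ≤ V0)
    (h : ∀ k, k ∈ S ↔ ∃ v ∈ W, ∃ σ ∈ K, k = v * pm1 σ) : Nat.card S = Nat.card W * Nat.card K := by
  rw [← Nat.card_prod]
  refine (Nat.card_congr (Equiv.ofBijective (fun p : W × K => ⟨p.1 * pm1 p.2, (h _).2 ⟨_, p.1.2, _, p.2.2, rfl⟩⟩)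
    ⟨fun p q e => ?_, fun k => ?_⟩)).symm
  · have e : (p.1 : CC) * pm1 p.2 = q.1 * pm1 q.2 := congrArg Subtype.val e
    have : pm1 (p.2 * (q.2 : MG)⁻¹) = (p.1 : CC)⁻¹ * q.1 := by
      rw [map_mul, map_inv, mul_inv_eq_iff_eq_mul, mul_assoc, ← e, inv_mul_cancel_left]
    have := mul_inv_eq_one.1 (pm_mem_SG (mk1_mem_V0.1 (this ▸ mul_mem (inv_mem (hW p.1.2)) (hW q.1.2) :
      pm1 (p.2 * (q.2 : MG)⁻¹) ∈ V0)))
    rw [this, mul_left_inj] at e
    exact Prod.ext (Subtype.ext e) (Subtype.ext this)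
  · obtain ⟨v, hv, σ, hσ, e⟩ := (h k).1 k.2
    exact ⟨(⟨v, hv⟩, ⟨σ, hσ⟩), Subtype.ext e.symm⟩

theorem card_NH : Nat.card ↥(N0 ⊓ H0) = 2 ^ 11 * 322560 := by
  rw [← card_V0, ← card_Oct]
  refine card_split le_rfl fun k => mem_NH.trans ⟨fun ⟨c, hc, σ, h, e⟩ => ⟨_, eps_mem hc, σ, h, e⟩, ?_⟩
  rintro ⟨v, hv, σ, h, e⟩
  obtain ⟨c, hc, rfl⟩ := mem_V0.1 hv
  exact ⟨c, hc, σ, h, e⟩

theorem index_N0 : N0.index = 8292375 := by
  have := N0.index_mul_card
  rw [card_N0, card_Co1] at this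
  exact Nat.eq_of_mul_eq_mul_right (by decide) (this.trans (by decide))

theorem odd_NH : Odd (N0.relIndex H0) := by
  have h1 := (N0 ⊓ H0).index_mul_card
  have h2 := relIndex_mul_index (inf_le_right : N0 ⊓ H0 ≤ H0)
  rw [card_NH, card_Co1] at h1
  rw [inf_relIndex_right, Nat.eq_of_mul_eq_mul_right (k := 6293912625) (by decide) (h1.trans (by decide))] at h2
  exact Odd.of_dvd_nat (by decide) (Dvd.intro _ h2)

theorem CVh.card_NHu : Nat.card ↥(N0 ⊓ centralizer ({z0, u0} : Set CC)) = 2 ^ 11 * 10752 := by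
  rw [← card_V0, ← Bc.card_KT]
  refine card_split le_rfl fun k => ⟨fun h => ?_, ?_⟩
  · obtain ⟨c, hc, σ, rfl⟩ := mem_N0.1 h.1
    have := mem_C2.1 h.2
    exact ⟨_, eps_mem hc, σ, ⟨(comm_pm oct0_mem).1 ((comm_left z0_V).1 this.1),
      (comm_pm oct1_mem).1 ((comm_left u0_V).1 this.2)⟩, rfl⟩
  · rintro ⟨v, hv, σ, h, rfl⟩
    obtain ⟨c, hc, rfl⟩ := mem_V0.1 hv
    exact ⟨mem_N0.2 ⟨c, hc, σ, rfl⟩, mem_C2.2 ⟨(comm_left z0_V).2 ((comm_pm oct0_mem).2 h.1),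
      (comm_left u0_V).2 ((comm_pm oct1_mem).2 h.2)⟩⟩

theorem CVh.exq : ∃ σ ∈ fixF MG oct0, pm1 σ * u0 * (pm1 σ)⁻¹ = u0 * z0 := by
  obtain ⟨σ, h, r⟩ := codes_E16 981818691054096003685363657089320992 (by decide)
  refine ⟨σ, h, ?_⟩
  rw [u0, z0, eps_mul, eps_conj, eps_eq_iff, smul_mask (t := 1351424) r (by decide +kernel)]
  exact Or.inr (by decide +kernel)

theorem CVh.z0_ne : z0 ≠ 1 := eps_ne_one (Or.inl oct0_mem.2)

theorem odd_NHu : Odd (N0.relIndex (centralizer ({z0, u0} : Set CC))) := by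
  have h1 := (N0 ⊓ centralizer ({z0, u0} : Set CC)).index_mul_card
  have h2 := relIndex_mul_index (inf_le_right : N0 ⊓ centralizer ({z0, u0} : Set CC) ≤ _)
  rw [card_NHu, card_Co1] at h1
  rw [inf_relIndex_right, Nat.eq_of_mul_eq_mul_right (k := 94408689375 * 2) (by decide) (h1.trans (by decide))] at h2
  obtain ⟨σ, hσ, e⟩ := exq
  have q2 : pm1 σ * pm1 σ = 1 := by rw [← map_mul, sq_fixOct oct0_mem hσ, map_one]
  have qz : Commute (pm1 σ) z0 := (comm_pm oct0_mem).2 (fixF_le_stab _ hσ)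
  have qn : pm1 σ ∈ normalizer (centralizer ({z0, u0} : Set CC) : Set CC) := mem_normalizer_fintype fun n hn => by
    have h := mem_C2.1 hn
    refine mem_C2.2 ⟨(qz.mul_left h.1).mul_left qz.inv_left, ?_⟩
    have := (h.2.mul_right h.1).conj (pm1 σ)
    rwa [← e, show pm1 σ * (pm1 σ * u0 * (pm1 σ)⁻¹) * (pm1 σ)⁻¹ = pm1 σ * pm1 σ * u0 * (pm1 σ * pm1 σ)⁻¹ by group,
      q2, one_mul, inv_one, mul_one] at this
  have h3 : orderOf (QuotientGroup.mk' ((centralizer ({z0, u0} : Set CC)).subgroupOf _) ⟨_, qn⟩) = 2 :=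
    orderOf_eq_prime (by rw [pow_two, ← map_mul]; exact (congrArg _ (Subtype.ext q2)).trans (map_one _)) fun k => by
      have := (mem_C2.1 (mem_subgroupOf.1 ((QuotientGroup.eq_one_iff _).1 k))).2
      rw [this.eq, mul_inv_cancel_right, left_eq_mul] at e
      exact z0_ne e
  obtain ⟨m, hm⟩ := (h3.symm.dvd.trans (_root_.orderOf_dvd_natCard _)).trans (relIndex_dvd_index_of_le le_normalizer)
  rw [hm, mul_comm 2, ← mul_assoc, mul_left_inj' two_ne_zero] at h2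
  exact Odd.of_dvd_nat (by decide) (Dvd.intro _ h2)

theorem N0_gen : N0 = closure (((N0 ⊓ H0 : Subgroup CC) : Set CC) ∪ {g0}) := by
  refine le_antisymm (fun k hk => ?_) ((closure_le _).2 (Set.union_subset (fun _ h => h.1) (by simpa using g0_mem)))
  obtain ⟨c, hc, σ, rfl⟩ := mem_N0.1 hk
  refine mul_mem (subset_closure (Or.inl ⟨V0_le_N0 (eps_mem hc), V0_le_H0 (eps_mem hc)⟩)) ?_
  refine ((S1565.result _ oct0_mem).2 ((Subgroup.closure _).comap pm1) (lt_of_le_of_ne (fun τ h => subset_closure (Or.inl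
    (mem_NH.2 ⟨_, empty_mem_supp, τ, h, by rw [eps_empty, one_mul]⟩))) fun e => ?_)).ge (mem_top σ)
  have := (comm_pm oct0_mem).2 (e.ge (mem_comap.2 (Subgroup.subset_closure (Or.inr rfl))) : γ0 ∈ _)
  exact u0_ne (g0_z0.symm.trans (mul_inv_eq_iff_eq_mul.2 this.eq))

theorem CVh.mono_Qt {σ : MG} {c : Finset GolayPt} {hc : c ∈ GSupp} :
    mono σ c hc ∈ Qt ↔ σ ∈ fixF MG oct0 ∧ Disjoint c oct0 := by
  refine ⟨fun h => ?_, fun h i hi => ?_⟩
  · have k : ∀ i ∈ oct0, σ • i = i ∧ σ • i ∉ c := fun i hi => by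
      have := h i hi
      rw [mono_e8] at this
      split_ifs at this with e
      exacts [absurd this.symm (e8_ne_neg _ _), ⟨e8_inj this, e⟩]
    exact ⟨fun i hi => (k i hi).1, Finset.disjoint_right.2 fun i hi => (k i hi).1 ▸ (k i hi).2⟩
  · rw [mono_e8, h.1 i hi, if_neg (Finset.disjoint_right.1 h.2 hi)]

theorem CVh.mem_Qt {g : CG} : g ∈ Qt ↔ ∃ σ ∈ fixF MG oct0, ∃ c hc, Disjoint c oct0 ∧ g = mono σ c hc := by
  refine ⟨fun h => ?_, fun ⟨σ, h, c, hc, h', e⟩ => e ▸ mono_Qt.2 ⟨h, h'⟩⟩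
  obtain ⟨σ, c, hc, rfl⟩ := mem_NN_of_fix (h none (by decide +kernel))
  exact ⟨σ, (mono_Qt.1 h).1, c, hc, (mono_Qt.1 h).2, rfl⟩

theorem CVh.mem_Q0 {k : CC} : k ∈ Q0 ↔ ∃ c hc, Disjoint c oct0 ∧ ∃ σ ∈ fixF MG oct0, k = eps c hc * pm1 σ := by
  refine ⟨fun ⟨g, h, e⟩ => ?_, fun ⟨c, hc, h, σ, h', e⟩ => ⟨_, (mono_Qt (hc := hc)).2 ⟨h', h⟩, ?_⟩⟩
  · obtain ⟨σ, h1, c, hc, h', rfl⟩ := mem_Qt.1 h
    exact ⟨c, hc, h', σ, h1, by rw [← e, ← sg_mul_pm, map_mul]; rfl⟩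
  · rw [e, ← sg_mul_pm σ hc, map_mul]; rfl

theorem CVh.eps_Q0 {c : Finset GolayPt} {hc : c ∈ GSupp} : eps c hc ∈ Q0 ↔ Disjoint c oct0 ∨ Disjoint cᶜ oct0 := by
  refine ⟨fun ⟨g, h, e⟩ => ?_, fun h => h.elim (fun h => ⟨_, mono_Qt.2 ⟨one_mem _, h⟩, rfl⟩)
    fun h => ⟨_, mono_Qt.2 ⟨one_mem _, h⟩, eps_compl hc⟩⟩
  rcases mk1_eq.1 e.symm with rfl | rfl
  · exact Or.inl (mono_Qt.1 h).2
  · rw [sg_neg] at h; exact Or.inr (mono_Qt.1 h).2

theorem CVh.pm1_Q0 {σ : MG} (h : σ ∈ fixF MG oct0) : pm1 σ ∈ Q0 :=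
  mem_Q0.2 ⟨_, empty_mem_supp, by simp, σ, h, by rw [eps_empty, one_mul]⟩

theorem Q0_le_N0 : Q0 ≤ N0 := fun _ h => let ⟨c, hc, _, σ, _, e⟩ := mem_Q0.1 h; mem_N0.2 ⟨c, hc, σ, e⟩

theorem Q0_le_H0 : Q0 ≤ H0 := fun _ h =>
  let ⟨c, hc, _, σ, h, e⟩ := mem_Q0.1 h; (mem_NH.2 ⟨c, hc, σ, fixF_le_stab _ h, e⟩).2

theorem z0_Q : z0 ∈ Q0 := eps_Q0.2 (Or.inr disjoint_compl_left)

theorem u0_Q : u0 ∈ Q0 := eps_Q0.2 (Or.inl (by decide +kernel))

theorem card_VQ : Nat.card ↥(V0 ⊓ Q0) = 32 :=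
  (ncard_V0 (p := (· ∈ Q0)) (pb := fun i => bor (Nat.beq (pc24 (gE i &&& cO0)) 0)
    (Nat.beq (pc24 ((gE i ^^^ (2 ^ 24 - 1)) &&& cO0)) 0)) fun i => by
    rw [bor_eq, Bool.or_eq_true, nbeq, nbeq, ← card_inter24, ← card_inter24, EG.ofMask_compl, Finset.card_eq_zero,
      Finset.card_eq_zero, ← Finset.disjoint_iff_inter_eq_empty, ← Finset.disjoint_iff_inter_eq_empty]
    exact eps_Q0).trans (by decide +kernel)

theorem card_Q0 : Nat.card Q0 = 2 ^ 9 := by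
  refine (card_split (W := V0 ⊓ Q0) (K := fixF MG oct0) inf_le_left fun k => ⟨fun h => ?_, ?_⟩).trans
    (by rw [card_VQ, card_fixOct oct0_mem]; rfl)
  · obtain ⟨c, hc, h, σ, h', e⟩ := mem_Q0.1 h
    exact ⟨_, ⟨eps_mem hc, eps_Q0.2 (Or.inl h)⟩, σ, h', e⟩
  · rintro ⟨v, hv, σ, h, rfl⟩
    exact mul_mem hv.2 (pm1_Q0 h)

end Cfsg.Agent.Co1T
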