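import Cfsg.Agent.Co1T.Bc0
import Cfsg.Agent.Co1T.M1

/-! `M₂₄` has no offender on the Golay code modulo `1`: `V0` is the only elementary abelian subgroup of order `2¹¹` of
`N0` (`weak_V0`). Fixed spaces are bit masks on `[0, 2048)`. -/

set_option autoImplicit false
set_option maxRecDepth 100000
set_option exponentiation.threshold 3000

namespace Cfsg.Agent.Co1T

open Subgroup Cfsg.Agent.Comp Cfsg.Agent.Leech Cfsg.Agent.Golay Cfsg.Agent.Mon Cfsg.Agent.BG
open scoped Pointwise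

def wF : ℕ := Nat.pred (Nat.pow 2 2048)

/-- Truth table of bit `i`. -/
def wX (i : ℕ) : ℕ := Nat.shiftLeft (Nat.div wF (Nat.succ (Nat.pow 2 (Nat.pow 2 i)))) (Nat.pow 2 i)

/-- Truth table of bit `j` of `lin R (a >>> i)`. -/
def wT (j : ℕ) (R : List ℕ) : ℕ → ℕ :=
  List.rec (motive := fun _ => ℕ → ℕ) (fun _ => 0)
    (fun r _ ih i => Nat.xor (Nat.mul (wX i) (bit r j)) (ih (Nat.succ i))) R

def wG (c r : ℕ) : ℕ := force (Nat.xor (img24 c r) r) fun d => Nat.xor d (Nat.shiftRight d 1)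

/-- The fixed space of `c` (shifted by 64; the low bits only make the numbers hash well). -/
def wM (c : ℕ) : ℕ := forceL (mapL (wG c) rows) fun R => Nat.lor (Nat.land c 0xffffffffffffffff) (Nat.shiftLeft
  (Nat.xor wF (Nat.rec (motive := fun _ => ℕ) 0 (fun j ih => Nat.lor ih (wT j R 0)) 11)) 64)

/-- Clear the lowest bit (above 64) `k` times. -/
def clr (k n : ℕ) : ℕ :=
  Nat.rec (motive := fun _ => ℕ) n (fun _ ih => force ih fun m => Nat.land m (Nat.sub m 0x10000000000000000)) k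

def nz (n : ℕ) : Bool := Nat.ble 0x10000000000000000 n

def wBad (L : List ℕ) (t : ℕ) : Bool :=
  forceL (mapL (fun s => clr 8 (Nat.land t s)) L) fun L0 => forceL (mapL (clr 8) (filterL nz L0)) fun L1 =>
    bor (Nat.ble 128 (lenL L1)) (bor (Nat.ble 64 (countL nz L1))
      (Nat.ble 16 (countL (fun x => nz (clr 16 x)) (filterL nz L1))))

def wI : List ℕ := filterL (fun c => Nat.beq (mul24 c c) one24) lP2

theorem wchk : forceL (mapL wM wI) (fun L => band (Nat.ble (lenL L) 255) (band (Nat.ble (countL (wBad L) L) 15)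
    (Nat.ble (countL (fun t => nz (clr 128 t)) L) 1))) = true := by decide +kernel

theorem wX_ok : allLt 12 (fun i => allLt 2048 fun a => tb (wX i) a == tb a i) = true := by decide +kernel

theorem wT_bit {a : ℕ} (ha : a < 2048) (j : ℕ) (R : List ℕ) :
    ∀ i, i + R.length ≤ 12 → (wT j R i).testBit a = (lin R (a >>> i)).testBit j := by
  induction R with
  | nil => exact fun i _ => (Nat.zero_testBit _).trans (Nat.zero_testBit _).symm
  | cons r R ih =>
    intro i h
    have k := allLt_iff.1 (allLt_iff.1 wX_ok i (by simp at h; omega)) a ha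
    rw [tb_eq, tb_eq, beq_iff_eq] at k
    rw [lin_cons, ← Nat.shiftRight_add, Nat.testBit_xor, ← ih (i + 1) (by simp at h; omega), Nat.testBit_shiftRight,
      Nat.add_zero, ← k]
    show (wX i * bit r j ^^^ wT j R (i + 1)).testBit a = _
    rw [Nat.testBit_xor, bit_eq]
    cases e : r.testBit j <;> cases e' : (wX i).testBit a <;> simp [e, e']

theorem lin_map {f : ℕ → ℕ} (h : ∀ a b, f (a ^^^ b) = f a ^^^ f b) (R : List ℕ) : ∀ a, lin (R.map f) a = f (lin R a) := by
  have h0 : f 0 = 0 := by simpa using h 0 0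
  induction R with
  | nil => exact fun _ => h0.symm
  | cons r R ih => intro a; rw [List.map_cons, lin_cons, lin_cons, h, ih]; split_ifs <;> simp [h0]

theorem wM_bit {c a : ℕ} {σ : MG} (h : RM c σ) (ha : a < 2048) (e : Commute (pm1 σ) (Bc.ev a)) :
    (wM c >>> 64).testBit a = true := by
  have x : ∀ s t, img24 c (s ^^^ t) = img24 c s ^^^ img24 c t := fun s t =>
    EG.ofMask_inj (h.imgP_lt _) (Nat.xor_lt_two_pow (h.imgP_lt _) (h.imgP_lt _)) (by
      rw [EG.ofMask_xor, ← h.smul_ofMask, ← h.smul_ofMask, ← h.smul_ofMask, EG.ofMask_xor, smul_symmDiff'])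
  have g : ∀ s t, wG c (s ^^^ t) = wG c s ^^^ wG c t := fun s t => by
    simp only [wG, force_eq, x, Nat.xor_eq, Nat.shiftRight_eq, Nat.shiftRight_xor_distrib]; ac_rfl
  have d : img24 c (gE a) ^^^ gE a = 0 ∨ img24 c (gE a) ^^^ gE a = 2 ^ 24 - 1 := by
    rcases eps_eq_iff.1 ((eps_conj σ (Bc.gE_mem a)).symm.trans (LES.cj_eq_iff_comm.2 e)) with k | k
    · rw [h.smul_ofMask] at k
      exact .inl (Nat.xor_eq_zero_iff.2 (EG.ofMask_inj (gE_lt a) (h.imgP_lt _) k).symm)
    · rw [h.smul_ofMask, ← EG.ofMask_compl] at k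
      exact .inr ((congrArg (img24 c (gE a) ^^^ ·) (EG.ofMask_inj (gE_lt a) (Nat.xor_lt_two_pow (h.imgP_lt _) (by decide)) k)).trans
        (Nat.xor_xor_cancel_left _ _))
  have b : ∀ n ≤ 11, (Nat.rec (motive := fun _ => ℕ) 0 (fun j ih => Nat.lor ih (wT j (rows.map (wG c)) 0)) n).testBit a
      = false := fun n hn => by
    induction n with
    | zero => exact Nat.zero_testBit _
    | succ n ih =>
      show Nat.testBit (_ ||| _) a = false
      rw [Nat.testBit_or, ih (by omega), wT_bit ha _ _ 0 (by simp [rows]), lin_map g, Nat.shiftRight_zero,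
        show lin rows a = gE a by rw [gE_eq_lin, Nat.and_two_pow_sub_one_of_lt_two_pow (n := 12) (by omega)], wG, force_eq]
      show (false || ((img24 c (gE a) ^^^ gE a) ^^^ (img24 c (gE a) ^^^ gE a) >>> 1).testBit n) = false
      replace hn : n < 11 := hn
      clear ih
      rcases d with d | d <;> rw [d] <;> interval_cases n <;> decide
  rw [wM, forceL_eq, mapL_eq, Nat.testBit_shiftRight]
  show (c &&& (2 ^ 64 - 1) ||| (wF ^^^ _) <<< 64).testBit _ = true
  rw [Nat.testBit_or, Nat.testBit_shiftLeft, Nat.add_sub_cancel_left, Nat.testBit_xor, b 11 le_rfl,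
    show wF = 2 ^ 2048 - 1 from rfl, Nat.testBit_two_pow_sub_one]
  simp [ha]

theorem popc_clr1 (N : ℕ) : ∀ n, popc N n ≤ popc N (n &&& (n - 1)) + 1 := by
  induction N with
  | zero => exact fun _ => Nat.zero_le _
  | succ N ih =>
    intro n
    have p : ∀ s, popc 1 s = s % 2 := fun s => by simp [popc]
    rw [Nat.add_comm N, popc_add, popc_add, p, p, Nat.shiftRight_and_distrib, Nat.shiftRight_one, Nat.shiftRight_one]
    rcases Nat.mod_two_eq_zero_or_one n with h | h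
    · have := ih (n / 2)
      rw [show (n - 1) / 2 = n / 2 - 1 by omega]; omega
    · rw [show (n - 1) / 2 = n / 2 by omega, Nat.and_self]; omega

theorem popc_clr (k n : ℕ) : popc 2048 (n >>> 64) ≤ popc 2048 (clr k n >>> 64) + k := by
  induction k with
  | zero => exact le_rfl
  | succ k ih =>
    have : clr (k + 1) n = clr k n &&& (clr k n - 0x10000000000000000) :=
      force_eq (clr k n) fun m => Nat.land m (Nat.sub m 0x10000000000000000)
    rw [this, Nat.shiftRight_and_distrib, show (clr k n - 0x10000000000000000) >>> 64 = clr k n >>> 64 - 1 by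
      simp only [Nat.shiftRight_eq_div_pow]; omega]
    have := popc_clr1 2048 (clr k n >>> 64)
    omega

theorem nz_of {n : ℕ} (h : 0 < popc 2048 (n >>> 64)) : nz n = true := nble.2 (by
  by_contra k
  rw [show n >>> 64 = 0 by rw [Nat.shiftRight_eq_div_pow]; omega, popc_eq] at h
  simp at h)

theorem card_le_popc {U : Subgroup CC} (hU : U ≤ V0) {x : ℕ} (h : ∀ a < 2048, (Bc.ev a : CC) ∈ U → x.testBit a = true) :
    #U ≤ popc 2048 x := by
  rw [popc_eq, ← Set.ncard_coe_finset, ← SetLike.coe_sort_coe, Nat.card_coe_set_eq]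
  refine le_trans (Set.ncard_le_ncard (t := (fun a => (Bc.ev a : CC)) '' _) (fun u hu => ?_) (Set.toFinite _))
    (Set.ncard_image_le (Set.toFinite _))
  obtain ⟨a, ha, e⟩ := Bc.ev_surj ⟨u, hU hu⟩
  exact ⟨a, by simpa using ⟨ha, h a ha (e ▸ hu)⟩, congrArg Subtype.val e⟩

theorem no_off' {E : Subgroup MG} (hP : E ≤ P2) (hE : ∀ σ ∈ E, σ * σ = 1) {U : Subgroup CC} (hU : U ≤ V0)
    (hc : ∀ σ ∈ E, ∀ u ∈ U, Commute (pm1 σ) u) (h1 : E ≠ ⊥) : #E * #U < 2048 := by
  have hl : Lists CM wI E := lists_P2.filter hP fun c g hg r =>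
    nbeq.2 ((canCM.eq_iff (grpCM.mul r r) grpCM.one).1 (hE g hg))
  have cnt : ∀ pb : ℕ → Bool, (∀ c g, g ∈ E → CM c g → pb (wM c) = true) → #E ≤ (wI.map wM).countP pb := fun pb h => by
    rw [List.countP_map, ← countL_eq]
    exact hl.card_subgroup_le (fun _ _ _ a b => funcRM a.1 b.1) le_rfl h
  have two : ∀ {c d g k}, g ∈ E → CM c g → k ∈ E → CM d k → #U ≤ popc 2048 ((wM c &&& wM d) >>> 64) :=
    fun hg r hk s => card_le_popc hU fun a ha m => by
      rw [Nat.shiftRight_and_distrib, Nat.testBit_and, wM_bit r.1 ha (hc _ hg _ m), wM_bit s.1 ha (hc _ hk _ m)]; rfl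
  have w := wchk
  simp only [forceL_eq, band_eq, Bool.and_eq_true, nble, lenL_eq, mapL_eq, countL_eq] at w
  obtain ⟨w1, w2, w3⟩ := w
  have e1 : #E ≤ 255 := (cnt (fun _ => true) fun _ _ _ _ => rfl).trans (List.countP_le_length.trans w1)
  have e2 : #U ≤ 128 := by
    by_contra k
    refine h1 (eq_bot_of_card_le _ ((cnt (fun t => nz (clr 128 t)) fun c g hg r => nz_of ?_).trans w3))
    have := two hg r hg r
    have := popc_clr 128 (wM c)
    rw [Nat.and_self] at *; omega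
  by_cases k : ∀ c g, g ∈ E → CM c g → wBad (wI.map wM) (wM c) = true
  · exact lt_of_le_of_lt (Nat.mul_le_mul ((cnt _ k).trans w2) e2) (by decide)
  simp only [not_forall] at k
  obtain ⟨c, g, hg, r, k⟩ := k
  simp only [wBad, forceL_eq, bor_eq, Bool.or_eq_true, nble, lenL_eq, mapL_eq, countL_eq, filterL_eq, not_or, not_le,
    List.length_map, ← List.countP_eq_length_filter, List.countP_map (f := clr 8), List.countP_filter,
    List.countP_map (f := fun s => clr 8 (Nat.land (wM c) s))] at k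
  obtain ⟨k1, k2, k3⟩ := k
  have q : ∀ {d g}, g ∈ E → CM d g → #U ≤ popc 2048 (clr 8 (Nat.land (wM c) (wM d)) >>> 64) + 8 :=
    fun hk s => (two hg r hk s).trans (popc_clr 8 _)
  by_cases a1 : #U ≤ 8
  · exact lt_of_le_of_lt (Nat.mul_le_mul e1 a1) (by decide)
  by_cases a2 : #U ≤ 16
  · refine lt_of_le_of_lt (Nat.mul_le_mul (Nat.le_pred_of_lt ((cnt _ fun d g hk s => ?_).trans_lt k1)) a2) (by decide)
    exact nz_of (n := clr 8 _) (by have := q hk s; omega)
  by_cases a3 : #U ≤ 32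
  · refine lt_of_le_of_lt (Nat.mul_le_mul (Nat.le_pred_of_lt ((cnt _ fun d g hk s => ?_).trans_lt k2)) a3) (by decide)
    have := q hk s
    have := popc_clr 8 (clr 8 (Nat.land (wM c) (wM d)))
    exact Bool.and_eq_true_iff.2 ⟨nz_of (n := clr 8 (clr 8 _)) (by omega), nz_of (n := clr 8 _) (by omega)⟩
  · refine lt_of_le_of_lt (Nat.mul_le_mul (Nat.le_pred_of_lt ((cnt _ fun d g hk s => ?_).trans_lt k3)) e2) (by decide)
    have := q hk s
    have := popc_clr 8 (clr 8 (Nat.land (wM c) (wM d)))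
    have := popc_clr 16 (clr 8 (clr 8 (Nat.land (wM c) (wM d))))
    exact Bool.and_eq_true_iff.2 ⟨Bool.and_eq_true_iff.2 ⟨nz_of (n := clr 16 (clr 8 (clr 8 _))) (by omega),
      nz_of (n := clr 8 (clr 8 _)) (by omega)⟩, nz_of (n := clr 8 _) (by omega)⟩

theorem no_off {E : Subgroup MG} (hE : ∀ σ ∈ E, σ * σ = 1) {U : Subgroup CC} (hU : U ≤ V0)
    (hc : ∀ σ ∈ E, ∀ u ∈ U, Commute (pm1 σ) u) (h1 : E ≠ ⊥) : #E * #U < 2048 := by
  obtain ⟨g, -, h⟩ := Co1A.conj_into (K := P2) (L := ⊤) (by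
    have := P2.card_mul_index
    rw [card_P2, ← card_top, card_top_MG] at this
    rw [relIndex_top_right, show P2.index = 239085 by omega]; decide) le_top (Co1A.pg_of_sq hE)
  rw [← card_cj g, ← card_cj (pm1 g)]
  refine no_off' h ?_ ?_ ?_ (by simpa using h1)
  · rintro _ ⟨a, ha, rfl⟩
    rw [← map_mul, hE a ha, map_one]
  · rintro _ ⟨a, ha, rfl⟩
    exact V0_conj (pm1_mem g) (hU ha)
  · rintro _ ⟨a, ha, rfl⟩ _ ⟨u, hu, rfl⟩
    simpa using (hc a ha u hu).conj (pm1 g)

theorem weak_V0 {A : Subgroup CC} (hA : A ≤ N0) (h2 : ∀ a ∈ A, a * a = 1) (hc : 2 ^ 11 ≤ Nat.card A) : A = V0 := by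
  have n : A ≤ N[V0] := fun a ha => mem_norm_of_cj_le fun _ ⟨v, hv, e⟩ => e ▸ V0_conj (hA ha) hv
  have dec : ∀ k ∈ A ⊔ V0, ∃ v ∈ V0, ∃ σ ∈ (A ⊔ V0).comap pm1, v * pm1 σ = k := fun k hk => by
    obtain ⟨c, h, σ, rfl⟩ := mem_N0.1 (sup_le hA V0_le_N0 hk)
    exact ⟨_, eps_mem h, σ, (Subgroup.mul_mem_cancel_left _ (mem_sup_right (eps_mem h))).1 hk, rfl⟩
  by_cases h : (A ⊔ V0).comap pm1 = ⊥
  · refine eq_of_le_of_card_ge (fun a ha => ?_) (card_V0 ▸ hc)
    obtain ⟨v, hv, σ, hσ, rfl⟩ := dec a (mem_sup_left ha)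
    rwa [mem_bot.1 (h.le hσ), map_one, mul_one]
  have k := no_off (U := A ⊓ V0) (fun σ hσ => ?_) inf_le_right (fun σ hσ u hu => ?_) h
  · have e := card_sup_mul_inf (.inl n)
    have : #(A ⊔ V0 : Subgroup CC) ≤ #V0 * #((A ⊔ V0).comap pm1) := by
      rw [← Nat.card_prod]
      refine Nat.card_le_card_of_surjective (fun x => ⟨x.1 * pm1 x.2, mul_mem (mem_sup_right x.1.2) x.2.2⟩) fun k => ?_
      obtain ⟨v, hv, σ, hσ, e⟩ := dec k k.2
      exact ⟨(⟨v, hv⟩, ⟨σ, hσ⟩), Subtype.ext e⟩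
    rw [card_V0] at this e
    nlinarith
  · obtain ⟨a, ha, v, hv, e⟩ := (mem_sup_normr n).1 hσ
    refine pm_mem_SG (mk1_mem_V0.1 (show pm1 (σ * σ) ∈ V0 from ?_))
    rw [map_mul, e, show a * v * (a * v) = a * v * a⁻¹ * (a * a) * v by group, h2 a ha, mul_one]
    exact mul_mem (V0_conj (hA ha) hv) hv
  · obtain ⟨a, ha, v, hv, e⟩ := (mem_sup_normr n).1 hσ
    rw [e]
    refine Commute.mul_left ?_ (V0_comm hv hu.2)
    have i : ∀ b ∈ A, b⁻¹ = b := fun b hb => inv_eq_of_mul_eq_one_right (h2 b hb)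
    rw [Commute, SemiconjBy, ← i _ (mul_mem ha hu.1), mul_inv_rev, i a ha, i u hu.1]

end Cfsg.Agent.Co1T
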