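import Cfsg.Agent.Co1T.M1
import Cfsg.Agent.Co1T.CV
import Cfsg.Agent.Co1T.CW
import Cfsg.Agent.Co1T.CT

/-! Step A of the recognition of `Co₁`: the involution centraliser is that of `Co₁` (`exists_phi`). -/

set_option autoImplicit false
set_option linter.unusedSectionVars false

namespace Cfsg.Agent.Co1T

open Subgroup Cfsg.Agent.BG Cfsg.Agent.LES Cfsg.Agent.Co1A Cfsg.Agent.Geom Cfsg.Agent.Golay
open scoped Pointwise

theorem setting0 : IsExtraspecialCentralizerSetting z0 Q1 4 := ⟨ord_z0, fstar_H0, Q1_es, card_Q1, nwc_H0⟩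

theorem Q1_map : Q1.map H0.subtype = Q0 := map_subgroupOf_eq_of_le Q0_le_H0

theorem fr0 : (∃ p μ, Fr z0 Q0 p μ) ∧ ∃ u ∈ Q0, IsConj z0 u ∧ u ≠ z0 := by
  have := Q1_normal
  obtain ⟨e⟩ := quot_H0
  have := fr_of setting0 e
  rwa [Q1_map] at this

theorem weak_in {L A : Subgroup CC} (ho : Odd (N0.relIndex L)) (hA : A ≤ L) (h2 : ∀ a ∈ A, a * a = 1)
    (c : #A = #V0) : ∃ h ∈ L, cj h A = V0 := by
  obtain ⟨g, hg, h⟩ := conj_into ho hA (pg_of_sq h2)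
  refine ⟨g, hg, weak_V0 h ?_ (by rw [card_cj, c, card_V0])⟩
  rintro _ ⟨a, ha, rfl⟩
  rw [← map_mul, h2 a ha, map_one]

theorem ex11 : ∃ k ∈ N0, orderOf k = 11 ∧ Commute k t0 := by
  have : Fact (Nat.Prime 11) := ⟨by norm_num⟩
  obtain ⟨σ, h⟩ := exists_prime_orderOf_dvd_card' (G := MulAction.stabilizer MG dod0) 11 (by rw [card_Dod]; decide)
  refine ⟨pm1 σ, pm1_mem _, by rw [orderOf_injective _ pm1_injective, orderOf_coe, h], cj_eq_iff_comm.1 ?_⟩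
  exact (eps_conj _ _).trans (eps_congr σ.2)

variable {G : Type*} [Group G] [Finite G] {z : G} {Q : Subgroup G} {p : G → W} {μ : C1[z] →* O8}

theorem exists_phi (F : Fr z Q p μ) (hf : ∃ u ∈ Q, IsConj z u ∧ u ≠ z) :
    ∃ φ : H0 →* G, Function.Injective φ ∧ φ.range = C1[z] ∧ φ ⟨z0, z0_mem⟩ = z ∧ ∀ h : H0, h.1 ∈ Q0 → φ h ∈ Q := by
  obtain ⟨⟨p0, μ0, F0⟩, hf0⟩ := fr0
  have key : ∀ {p0 μ0}, Fr z0 Q0 p0 μ0 → (Ab Q p μ ↔ Ab Q0 p0 μ0) → ∃ φ : H0 →* G, Function.Injective φ ∧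
      φ.range = C1[z] ∧ φ ⟨z0, z0_mem⟩ = z ∧ ∀ h : H0, h.1 ∈ Q0 → φ h ∈ Q := fun F0 H => by
    obtain ⟨φ, h1, h2⟩ := F.iso F0 hf hf0 H
    have k : ∀ h : H0, h.1 ∈ Q0 → (φ h).1 ∈ Q := fun h hh => (F.ker _).1 (by rw [h1]; exact (F0.ker _).2 hh)
    refine ⟨C1[z].subtype.comp φ.toMonoidHom, (subtype_injective _).comp φ.injective, ?_, ?_, k⟩
    · rw [MonoidHom.range_comp, MonoidHom.range_eq_top.2 φ.surjective, ← MonoidHom.range_eq_map, range_subtype]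
    · refine ((F.p0 (k _ z0_Q)).1 ((h2 _ z0_Q).trans F0.pz)).resolve_left fun e => F0.es.z1 ?_
      exact congrArg Subtype.val (φ.map_eq_one_iff.1 (Subtype.ext e))
  have := F0.no_twist hf0 V0_le_H0 (fun _ => V0_sq) z0_V card_VQ (fun A => weak_in odd_NH)
    (refl_notMem (v := cv 17) ((Co1A.S1 (by decide)).2 (by decide)))
  by_cases H : Ab Q p μ ↔ Ab Q0 p0 μ0
  · exact key F0 H
  · exact key (F0.twist (refl S (cv 17))) (by tauto)

end Cfsg.Agent.Co1T
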